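import Cfsg.Agent.SubF.Unt

/-! Degrees of finite subfields. -/

set_option autoImplicit false

namespace Cfsg.Agent.SubF

open Polynomial

variable {F : Type*} [Field F] (p : ℕ) [Fact p.Prime] [CharP F p]

theorem dvd_of_card {a n : ℕ} (ha : Nat.card {t : F // t ^ p ^ a = t} = p ^ a)
    (hn : Nat.card {t : F // t ^ p ^ n = t} = p ^ n) (h : ∀ t : F, t ^ p ^ a = t → t ^ p ^ n = t) : a ∣ n := by
  let A := (iterateFrobenius F p a).eqLocusField (RingHom.id F)
  let B := (iterateFrobenius F p n).eqLocusField (RingHom.id F)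
  have hp := (Fact.out : p.Prime)
  have : Finite B := Nat.finite_of_card_ne_zero (hn.trans_ne (pow_ne_zero _ hp.ne_zero))
  let : Algebra A B := (Subfield.inclusion (show A ≤ B from h)).toAlgebra
  have e := Module.natCard_eq_pow_finrank (K := A) (V := B)
  exact ⟨_, Nat.pow_right_injective hp.two_le (by
    simpa only [pow_mul] using hn.symm.trans (e.trans (congrArg (· ^ _) ha)))⟩

theorem card_algClosed [IsAlgClosed F] {a : ℕ} (ha : 0 < a) : Nat.card {t : F // t ^ p ^ a = t} = p ^ a := by
  have h1 : 1 < p ^ a := Nat.one_lt_pow ha.ne' (Fact.out : p.Prime).one_lt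
  have e := card_rootSet_eq_natDegree (K := F) (galois_poly_separable (K := F) p _ (dvd_pow_self p ha.ne'))
    (IsAlgClosed.splits _)
  rw [FiniteField.X_pow_card_sub_X_natDegree_eq F h1, ← Nat.card_eq_fintype_card] at e
  refine Eq.trans (Nat.card_congr (Equiv.subtypeEquivRight fun t => ?_)) e
  simp [mem_rootSet, FiniteField.X_pow_card_sub_X_ne_zero F h1, sub_eq_zero]

end Cfsg.Agent.SubF
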