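import Cfsg.Agent.SubF.Tw
import Cfsg.Agent.ChAut.TwE6
import Cfsg.Agent.ChAut.TwD4

/-! Overgroups of the subfield subgroup in ²E₆(q) and ³D₄(q). -/

set_option autoImplicit false

namespace Cfsg.Agent.SubF

open Cfsg.Lie Cfsg.Agent.Chev Cfsg.Agent.Chev.Sys

attribute [-simp] zsmul_eq_mul

variable {D : ChevalleyDatum} [Good D] {S : Sym D} {F : Type*} [Field F] {G : Type*} [Group G]
  {X : Sys D F G} {Γ H : Subgroup G} {ε : Rt D → ℤ} {φ : F →+* F}

theorem Co.map (c : X.Cover) {r : Rt D} {u : G} {t : F} (h : Co X r u t) : Co (adS D F) r (c.π u) t := by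
  simpa [Co, c.π_x] using c.π_mem_U h

theorem frob_gword (w : List (ℕ × F)) :
    (frob D φ).σ (gword (adS D F).x w) = gword (adS D F).x (w.map fun p => (p.1, φ p.2)) := by
  simp only [map_gword, (frob D φ).σ_x]
  simp [gword, Function.comp_def, frob, Sym.one]

theorem tw_of [Conn D] (c : X.Cover) (hX : X.U Set.univ = ⊤) {σ : X.Aut S} {W : Set (List (ℕ × F))}
    (g : σ.Gen (X.genW W)) (ha : ∀ r t, σ.a r t = ε r * φ t) (k : Cmb S ε)
    (hc : ∀ r : Rt D, ∀ s ∈ [S.ρ r, S.ρ (S.ρ r)], s = r ∨ CommIs D 0 r s [])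
    (hd : (∀ r, S.ρ (S.ρ r) = r ∧ ε (S.ρ r) * ε r = 1) ∧ (∀ t, φ (φ t) = t) ∨
      (∀ r, S.ρ (S.ρ (S.ρ r)) = r ∧ ε (S.ρ (S.ρ r)) * ε (S.ρ r) * ε r = 1) ∧ ∀ t, φ (φ (φ t)) = t)
    (hW : ∀ w ∈ W, (w.map fun p => (p.1, φ p.2)) ∈ W) {R : List (Sm D)} (hR : S.Reps R)
    (hN : ∀ j ∈ R, ∃ L L' r, S.Orb j L (r :: L') ∧ (r :: L').map (·, 1) ∈ W) :
    Tw S (adS D F) (D.genSubgroup F W) ε φ (frob D φ) where
  cmb := k
  fold := c.map_genW W ▸ g.fold.map c hX
  gen := by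
    rw [← c.map_genW]
    refine (Subgroup.map_mono g.gen).trans ?_
    rw [Subgroup.map_sup]
    exact sup_le_sup (by rintro _ ⟨y, h, rfl⟩; exact ⟨c.π_mem_U h.1, y, h.2, rfl⟩)
      (by rintro _ ⟨y, h, rfl⟩; exact ⟨c.π_mem_U h.1, y, h.2, rfl⟩)
  a _ _ := rfl
  map := by
    rw [ChAut.genSubgroup_eq]
    exact genW_le (K := ((adS D F).genW W).comap (frob D φ).σ) fun w hw =>
      Subgroup.mem_comap.2 (frob_gword (D := D) w ▸ mem_genW (hW w hw))
  co r hr u hu t ht := by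
    obtain ⟨v, hv, rfl⟩ := (g.fold.map_U c hX (T := Lv (Chev.ht r)) fun _ h => h.1).ge ⟨ht.mem hr, c.map_genW W ▸ hu⟩
    obtain ⟨s, hs⟩ := exists_co hv.1
    obtain rfl := (hs.map c).unique hr (adCover D F) ht
    have := hs.σ k.ht σ
    rw [Aut.mem_fix.1 (g.le hv.2), ha] at this
    exact this.map c
  ex r hr t ht := by
    suffices ∃ v ∈ X.U (orbE S r), X.x r t * v ∈ σ.fix by
      obtain ⟨v, a1, a2⟩ := this
      have a3 := X.U_mono (orbE_sub k.ht hr) a1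
      have a4 := mul_mem (X.x_mem_U (Set.mem_insert r (orbE S r)) t) (X.U_mono (Set.subset_insert _ _) a1)
      exact ⟨_, c.map_genW W ▸ ⟨_, g.UP_le ⟨X.U_mono (fun _ h => (k.sub hr h).1) a4, a2⟩, rfl⟩, c.π_mem_U a4,
        Co.map c (by simpa [Co])⟩
    by_cases e : S.ρ r = r
    · exact ⟨1, one_mem _, by simp [Aut.mem_fix, σ.σ_x, ha, e, (k r).2.2.2.1 e, ht e]⟩
    have a1 : ∀ s ∈ [S.ρ r, S.ρ (S.ρ r)], s ≠ r → ∀ u, X.x s u * X.x r t = X.x r t * X.x s u := fun s hs e u => by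
      simpa [xN_val] using (X.xN_commute Nat.cast_zero ((hc r s hs).resolve_left e) t u).eq
    rcases hd with ⟨h1, h2⟩ | ⟨h1, h2⟩
    · refine ⟨_, X.x_mem_U (And.intro e (.inl rfl)) (ε r * φ t), ?_⟩
      simp only [Aut.mem_fix, map_mul, σ.σ_x, ha, map_intCast, h1, h2, ← mul_assoc, ← Int.cast_mul, Int.cast_one,
        one_mul]
      exact a1 _ (by simp) e _
    have e' : S.ρ (S.ρ r) ≠ r := fun h => e ((congrArg S.ρ h).symm.trans (h1 r).1)
    refine ⟨_, mul_mem (X.x_mem_U (And.intro e (.inl rfl)) (ε r * φ t))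
      (X.x_mem_U (And.intro e' (.inr rfl)) (ε (S.ρ r) * φ (ε r * φ t))), ?_⟩
    simp only [Aut.mem_fix, map_mul, σ.σ_x, ha, map_intCast, h1, h2, ← mul_assoc, ← Int.cast_mul, Int.cast_one,
      one_mul]
    rw [mul_assoc, a1 _ (by simp) e', ← mul_assoc, a1 _ (by simp) e]
  neg := hR.forall_orb (P := fun J => ∃ v ∈ (adS D F).U {r | ¬ Pos r ∧ InJ J r},
      v ∈ D.genSubgroup F W ⊓ (frob D φ).fix ∧ v ≠ 1) fun j hj => by
    obtain ⟨L, L', r, a1, a2⟩ := hN j hj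
    have a3 := a1.neg (adCover D F) (w := L'.map (·, 1)) (r := r) (by simp [Function.comp_def]) one_ne_zero
    exact ⟨_, a3.1, ⟨ChAut.genSubgroup_eq (D := D) W ▸ mem_genW a2, (frob_gword (D := D) _).trans (by simp [Function.comp_def])⟩, a3.2⟩

section Field

variable {A : AddSubgroup F} (h : ∀ a t, φ a = a → t ∈ A → a * t ∈ A) (h1 : 1 ∈ A) {t : F} (ht : t ∈ A) (h0 : φ t ≠ t)
include h h1 ht h0

theorem all2 (h2 : ∀ t, φ (φ t) = t) (s : F) : s ∈ A := by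
  have e := sub_ne_zero.2 h0
  have e' := sub_ne_zero.2 h0.symm
  convert add_mem (h ((φ s * t - s * φ t) / (t - φ t)) 1 (by simp [h2]; field_simp; ring) h1)
    (h ((s - φ s) / (t - φ t)) t (by simp [h2]; field_simp; ring) ht) using 1
  field_simp; ring

theorem all3 (h3 : ∀ t, φ (φ (φ t)) = t) (ht' : t⁻¹ ∈ A) (s : F) : s ∈ A := by
  have e1 := sub_ne_zero.2 h0
  have e2 := sub_ne_zero.2 (φ.injective.ne h0)
  have e3 := sub_ne_zero.2 (φ.injective.ne (φ.injective.ne h0))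
  have e0 : t ≠ 0 := by rintro rfl; simp at h0
  rw [h3] at e3
  obtain ⟨w, hw⟩ : ∃ w, w = s * t / ((φ t - t) * (t - φ (φ t))) := ⟨_, rfl⟩
  convert add_mem (add_mem (h (-(w * φ t * φ (φ t) + φ w * φ (φ t) * t + φ (φ w) * t * φ t)) _ (by simp [h3]; ring) ht')
    (h (w * (φ t + φ (φ t)) + φ w * (φ (φ t) + t) + φ (φ w) * (t + φ t)) _ (by simp [h3]; ring) h1))
    (h (-(w + φ w + φ (φ w))) _ (by simp [h3]; ring) ht) using 1
  generalize φ (φ w) = w2, φ w = w1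
  rw [hw]; field_simp; ring

end Field

theorem Tw.mem_E {α : X.Aut (Sym.one D)} (h : Tw S X Γ ε φ α) (c : X.Cover) (hΦ : Γ ⊓ α.fix ≤ H) {r : Rt D}
    (hr : Pos r) : 1 ∈ E S X H hr := (h.exΦ c hr (map_one φ)).imp fun _ h => ⟨hΦ h.1, h.2⟩

theorem orb_compl (h : ∀ i, (S.π (S.π (S.π i)) = i ∨ S.π (S.π i) = i) ∧ ∃ j, j ≠ i ∧ j ≠ S.π i ∧ j ≠ S.π (S.π i))
    (i : Sm D) : (S.orb i)ᶜ.Nonempty := (h i).2.imp fun j hj => by
  rw [S.orb_eq3 i (h i).1]; simpa [not_or] using hj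

theorem orb_sub {j : Sm D} {L L' : List ℕ} (h : S.Orb j L L') (k : ∀ r : Rt D, (r : ℕ) ∈ L → r ∈ Ob S (sm j)) :
    {r | Pos r ∧ InJ (S.orb j) r} ⊆ Ob S (sm j) := fun r hr => k r ((h.1.2.2 r).2 hr)

section Comm

variable {r : Rt D} (hr : Pos r) {y y' z z' : G} {s s' : F}
include hr

theorem Co.commL (h : Co X r (y⁻¹ * z⁻¹ * y * z) s) (h' : Co X r (y'⁻¹ * z⁻¹ * y' * z) s') (hy : y' ∈ X.UP) :
    Co X r ((y * y')⁻¹ * z⁻¹ * (y * y') * z) (s + s') := by
  convert (h.conj hr hy).mul hr h' using 1; group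

theorem Co.commR (h : Co X r (y⁻¹ * z⁻¹ * y * z) s) (h' : Co X r (y⁻¹ * z'⁻¹ * y * z') s') (hz : z' ∈ X.UP) :
    Co X r (y⁻¹ * (z * z')⁻¹ * y * (z * z')) (s' + s) := by
  convert h'.mul hr (h.conj hr hz) using 1; group

theorem co_comm0 {T T' : Set (Rt D)} {m k : ℤ} (h : (∀ a ∈ T, a ∈ Lv m) ∧ (∀ a ∈ T', a ∈ Lv k) ∧ ht r = m + k ∧
    ∀ a ∈ T, ∀ b ∈ T', ∃ i, rtv r i ≠ rtv b i + rtv a i) (hy : y ∈ X.U T) (hz : z ∈ X.U T') :
    Co X r (y⁻¹ * z⁻¹ * y * z) 0 := co_zero.2 (comm_N hr h.1 h.2.1 h.2.2.1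
  (fun a ha b hb e => (h.2.2.2 a ha b hb).elim fun i hi => hi (congrFun e i)) hy hz)

omit hr in
theorem conj_x {a b : Rt D} {e : ℤ} (k : CommIs D 0 b a [(r, e, 1, 1)]) (t u : F) :
    MulAut.conj (X.x b u)⁻¹ (X.x a t) = X.x a t * X.x r (-(e * u * t)) := by
  have := X.xN_comm Nat.cast_zero k u t
  simp only [xN_val, evT, List.map, gword_cons, gword_nil, mul_one, pow_one, mul_neg, neg_mul] at this
  rw [MulAut.conj_apply, inv_inv, mul_assoc, this]; group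

omit hr in
theorem co_comm1 {a b : Rt D} {e : ℤ} (k : CommIs D 0 b a [(r, e, 1, 1)]) (t u : F) :
    Co X r ((X.x a t)⁻¹ * (X.x b u)⁻¹ * X.x a t * X.x b u) (-(e * u * t)) := by
  convert co_x r _ using 1
  rw [← inv_mul_cancel_left (X.x a t) (X.x r _), ← conj_x k]; simp [mul_assoc]

end Comm

variable {q : ℕ} (hφ : ∀ t, φ t = t ^ q) (p : ℕ) [Fact p.Prime] [CharP F p] [Finite F]
include hφ

section E6

variable (h2 : ∀ t, φ (φ t) = t)
include h2

omit [Finite F] in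
theorem twE6' : Tw symE6 (adS chevE6 F) (twistedE6 F q) (fun r => twE6.ε r) φ (frob _ φ) :=
  tw_of (stCover _ _) (stS_U_univ _ _) (genE6 hφ h2) (fun r t => congrArg _ (pow_one _)) (by decide +kernel)
    (by decide +kernel) (.inl ⟨by decide +kernel, h2⟩) (by
      rintro _ (⟨t, ht, r, hr, rfl⟩ | ⟨t, r, hr, rfl⟩)
      exacts [.inl ⟨_, by rw [← map_pow, ht], r, hr, rfl⟩, .inr ⟨φ t, r, hr, by simp⟩]) repsE6 (by
    simp only [List.forall_mem_cons, List.not_mem_nil, false_imp_iff, implies_true, and_true]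
    exact ⟨⟨_, _, _, orbE6_1, .inl ⟨1, by simp, e6m2, by simp, rfl⟩⟩, ⟨_, _, _, orbE6_3, .inl ⟨1, by simp, e6m4, by simp, rfl⟩⟩,
      ⟨_, _, _, orbE6_2, .inr ⟨1, (e6m3, e6m5), by simp, by simp [e6m3, e6m5]⟩⟩,
      _, _, _, orbE6_0, .inr ⟨1, (e6m1, e6m6), by simp, by simp [e6m1, e6m6]⟩⟩)

include p in
theorem maxE6 {H : Subgroup (GL chevE6.Idx F)} (hΦ : twistedE6 F q ⊓ (frob _ φ).fix ≤ H) (hH : H ≤ twistedE6 F q) :
    H ≤ (frob _ φ).fix ∨ H = twistedE6 F q := by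
  have h := twE6' hφ h2
  have c := adCover chevE6 F
  by_cases e : Rat (adS chevE6 F) H (φ.eqLocusField (.id F)) ⟨68, by decide⟩
  · exact .inl (h.le_fix (adCover _ _) hΦ hH (adS_mult _ _) (fun _ _ h => h) p (h.rat_pos c hΦ hH (R := [⟨68, by decide⟩])
      (by simpa) (by decide +kernel)) (orb_compl (by decide +kernel)) (θ := ⟨71, by decide⟩) (β := ⟨60, by decide⟩)
      (i := ⟨0, by decide⟩) (by decide +kernel))
  simp only [Rat, not_forall] at e
  obtain ⟨u, hu, t, ht, e⟩ := e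
  have a1 := h.mem_E_top c hΦ hH (by decide +kernel) (by decide +kernel) hu ht
  obtain ⟨a, b1, b2, b3⟩ := h.tr c hΦ isReflE6 [3, 0, 5, 2, 4, 1, 3, 2, 4, 0, 5] (r := ⟨68, by decide⟩)
    (by decide +kernel) (pos_sm ⟨2, by decide⟩) (by decide +kernel)
  have a2 := all2 (fun a t => h.smul_E c hΦ (pos_sm ⟨2, by decide⟩) (β := ⟨39, by decide⟩) (by decide +kernel)
    fun s hs => by
      rw [twistedE6, ChAut.genSubgroup_eq]
      exact mem_genW (.inl ⟨s, hφ s ▸ hs, e6m4, by simp, congrArg (fun r => [(r, s)]) (by decide +kernel)⟩))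
    (h.mem_E c hΦ _) (b3 t a1) (by rw [map_mul, b2]; exact fun e' => e (mul_left_cancel₀ b1 e')) h2
  obtain ⟨a', b4, -, b5⟩ := h.tr c hΦ isReflE6 [2, 4, 0, 5] (pos_sm ⟨2, by decide⟩) (pos_sm ⟨0, by decide⟩)
    (by decide +kernel)
  refine .inr (h.eq_of c hΦ hH repsE6 ?_)
  simp only [List.forall_mem_cons, List.not_mem_nil, false_imp_iff, implies_true, and_true]
  exact ⟨⟨orb_sub orbE6_1 (by decide +kernel), .inl (by decide +kernel)⟩,
    ⟨orb_sub orbE6_3 (by decide +kernel), .inl (by decide +kernel)⟩, ⟨orb_sub orbE6_2 (by decide +kernel), .inr a2⟩,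
    orb_sub orbE6_0 (by decide +kernel), .inr fun s => mul_inv_cancel_left₀ b4 s ▸ b5 _ (a2 _)⟩

end E6

section D4

variable (h3 : ∀ t, φ (φ (φ t)) = t)
include h3

omit [Finite F] in
theorem twD4' : Tw symD4 (adS chevD4 F) (twistedD4 F q) (fun r => twD4.ε r) φ (frob _ φ) :=
  tw_of (stCover _ _) (stS_U_univ _ _) (genD4 hφ h3) (fun r t => congrArg _ (pow_one _)) (by decide +kernel)
    (by decide +kernel) (.inr ⟨by decide +kernel, h3⟩) (by
      rintro _ (⟨t, ht, r, hr, rfl⟩ | ⟨t, r, hr, rfl⟩)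
      exacts [.inl ⟨_, by rw [← map_pow, ht], r, hr, rfl⟩, .inr ⟨φ t, r, hr, by simp⟩]) repsD4 (by
    simp only [List.forall_mem_cons, List.not_mem_nil, false_imp_iff, implies_true, and_true]
    exact ⟨⟨_, _, _, orbD4_1, .inl ⟨1, by simp, d4m2, by simp, rfl⟩⟩,
      _, _, _, orbD4_0, .inr ⟨1, (d4m1, d4m3, d4m4), by simp, by simp [d4m1, d4m3, d4m4]⟩⟩)

/-- The roots of type `D₄`. -/
def rD (n : ℕ) : Rt chevD4 := ⟨n % chevD4.nroots, Nat.mod_lt _ (by decide)⟩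

local notation "𝐱" n:max => Sys.x (adS chevD4 F) (rD n)

omit [Finite F] h3 in
theorem memD4 (t : F) : (𝐱 18) t * ((𝐱 13) (φ t) * (𝐱 12) (φ (φ t))) ∈ twistedD4 F q := by
  rw [twistedD4, ChAut.genSubgroup_eq]
  convert mem_genW (X := adS chevD4 F) (W := d4Words F q) (.inr ⟨t, (d4p1, d4p3, d4p4), by simp, rfl⟩) using 1
  rw [sq, pow_mul, ← hφ, ← hφ]
  exact congrArg _ (congrArg _ (mul_one _).symm)

omit hφ h3 in
theorem pD {n : ℕ} (e : 12 ≤ n % chevD4.nroots := by decide) : Pos (rD n) :=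
  (by decide +kernel : ∀ r : Rt chevD4, 12 ≤ (r : ℕ) → Pos r) _ e

variable {H : Subgroup (GL chevD4.Idx F)} (hΦ : twistedD4 F q ⊓ (frob _ φ).fix ≤ H) (hH : H ≤ twistedD4 F q)
include hΦ hH

omit [Finite F] in
theorem ratD4 (h : Rat (adS chevD4 F) H (φ.eqLocusField (.id F)) (rD 21)) :
    Rat (adS chevD4 F) H (φ.eqLocusField (.id F)) (rD 19) := fun u hu t ht => by
  have c := adCover chevD4 F
  have a1 : Co (adS chevD4 F) (rD 16) u (-φ t) := by
    simpa [show twD4.ε (rD 19) = -1 by decide +kernel, show symD4.ρ (rD 19) = rD 16 by decide +kernel] using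
      (twD4' hφ h3).co _ pD u (hH hu) t ht
  have m : ∀ {T : Set (Rt chevD4)} {r t}, r ∈ T → (adS chevD4 F).x r t ∈ (adS chevD4 F).U T := fun h => x_mem_U _ h _
  have a2 : (𝐱 19) t ∈ (adS chevD4 F).U (Lv (Chev.ht (rD 16)) \ {rD 16}) := m (by decide +kernel)
  have a3 : (𝐱 16) (-φ t) ∈ (adS chevD4 F).U (Lv (Chev.ht (rD 19)) \ {rD 19}) := m (by decide +kernel)
  have a4 := (co_zero.2 (inv_mem a2)).mul pD a1
  rw [zero_add] at a4
  have a5 := (c.U_inf_U (stab_N (X := adS chevD4 F) _).nilp (stab_N (X := adS chevD4 F) _).nilp).le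
    ⟨a4, Subgroup.mul_mem _ (Subgroup.inv_mem _ a3) ht⟩
  have a6 : (𝐱 18) 1 * ((𝐱 13) 1 * (𝐱 12) 1) ∈ H := hΦ ⟨by simpa using memD4 hφ 1, Aut.mem_fix.2 (by
    simp only [map_mul, Aut.σ_x, (twD4' hφ h3).a, map_one]; rfl)⟩
  have a7 : (𝐱 13) 1 * (𝐱 12) 1 ∈ (adS chevD4 F).U {rD 13, rD 12} := mul_mem (m (by simp)) (m (by simp))
  have a8 : (𝐱 13) 1 * (𝐱 12) 1 ∈ (adS chevD4 F).UP := mul_mem (m pD) (m pD)
  have a9 := U_mono _ (T := {r | Pos r}) (fun _ h => h.1.1.1) a5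
  have z := fun {T T' y z} => co_comm0 (X := adS chevD4 F) (pD (n := 21)) (m := 2) (k := 1) (T := T) (T' := T')
    (y := y) (z := z)
  have b := h _ (mul_mem (mul_mem (mul_mem (inv_mem hu) (inv_mem a6)) hu) a6) _ (by
    convert ((z (T := {rD 19}) (T' := {rD 18}) (by decide +kernel) (m (t := t) rfl) (m rfl)).commR pD
      ((co_comm1 (e := 1) (by decide +kernel) t 1).commR pD
        (z (T := {rD 19}) (T' := {rD 12}) (by decide +kernel) (m rfl) (m rfl)) (m pD)) a8).commL pD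
      (((co_comm1 (a := rD 16) (e := -1) (by decide +kernel) (-φ t) 1).commR pD
        (z (T := {rD 16}) (by decide +kernel) (m rfl) a7) a8).commL pD
        (z (T' := {rD 18, rD 13, rD 12}) (by decide +kernel) a5
          (mul_mem (m (by simp)) (U_mono _ (Set.subset_insert _ _) a7))) a9) (mul_mem (m pD) a9) using 1
    group)
  have b1 : φ (φ t) = t := by
    have : φ _ = _ := b
    simp at this
    linear_combination -this
  exact (congrArg φ b1).symm.trans (h3 t)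

omit [Finite F] in
theorem invD4 {t : F} (h1 : t ∈ E symD4 (adS chevD4 F) H (pD (n := 18))) (h2 : t ∈ E symD4 (adS chevD4 F) H (pD (n := 19))) :
    φ (φ t) * φ t ∈ E symD4 (adS chevD4 F) H (pD (n := 17)) := by
  have h := twD4' hφ h3
  have c := adCover chevD4 F
  have m : ∀ {T : Set (Rt chevD4)} {r t}, r ∈ T → (adS chevD4 F).x r t ∈ (adS chevD4 F).U T := fun h => x_mem_U _ h _
  have a1 := h.mem_of_E c pD hH (memD4 hφ t) (mul_mem (m (by decide +kernel))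
    (mul_mem (m (by decide +kernel)) (m (by decide +kernel)))) (by
      rw [Co, inv_mul_cancel_left]; exact mul_mem (m (by decide +kernel)) (m (by decide +kernel))) h1
  have a2 : (𝐱 14) 1 ∈ H := hΦ ⟨by
    rw [twistedD4, ChAut.genSubgroup_eq, ← mul_one ((𝐱 14) 1)]
    exact mem_genW (X := adS chevD4 F) (W := d4Words F q) (.inl ⟨1, by simp, d4p2, by simp, rfl⟩), Aut.mem_fix.2 (by
      simp only [Aut.σ_x, h.a, map_one]; rfl)⟩
  have a3 := mul_mem (inv_mem a2) (mul_mem (mul_mem (inv_mem a1) a2) (inv_mem (inv_mem a1)))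
  rw [← MulAut.conj_apply] at a3
  simp only [mul_inv_rev, map_mul, MulAut.mul_apply,
    conj_x (b := rD 18) (a := rD 14) (r := rD 19) (e := -1) (by decide +kernel),
    conj_x (b := rD 13) (a := rD 14) (r := rD 16) (e := 1) (by decide +kernel),
    conj_x (b := rD 13) (a := rD 19) (r := rD 21) (e := 1) (by decide +kernel),
    conj_x (b := rD 12) (a := rD 14) (r := rD 15) (e := 1) (by decide +kernel),
    conj_x (b := rD 12) (a := rD 16) (r := rD 17) (e := 1) (by decide +kernel),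
    conj_x (b := rD 12) (a := rD 19) (r := rD 20) (e := 1) (by decide +kernel),
    conj_x (b := rD 12) (a := rD 21) (r := rD 22) (e := 1) (by decide +kernel), Int.cast_one, Int.cast_neg, one_mul,
    mul_one, neg_mul, mul_neg, neg_neg] at a3
  have a4 : (𝐱 15) (-φ (φ t)) * (𝐱 16) (-φ t) * (𝐱 19) t ∈ (adS chevD4 F).U (Ob symD4 (rD 19)) :=
    mul_mem (mul_mem (m (by decide +kernel)) (m (by decide +kernel))) (m (by decide +kernel))
  have a5 := ((co_x (rD 17) (φ (φ t) * φ t)).conj pD (m (r := rD 19) (t := t) pD)).mul pD (co_zero.2 (mul_mem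
    (m (r := rD 20) (t := -(φ (φ t) * t)) (by decide +kernel)) (mul_mem (m (r := rD 21) (t := -(φ t * t))
      (by decide +kernel)) (m (r := rD 22) (t := φ (φ t) * (φ t * t)) (by decide +kernel)))))
  rw [add_zero] at a5
  refine h.mem_E_top c hΦ hH _ (by decide +kernel) ((H.mul_mem_cancel_left (h.mem_of_E c pD hH (h.split c pD a4
    ((show Chev.ht (rD 17) = Chev.ht (rD 19) + 1 by decide +kernel) ▸ a5.mem pD) (hH (by convert a3 using 1; group))) a4
      (by simpa using ((co_zero.2 (mul_mem (m (by decide +kernel)) (m (by decide +kernel)))).mul pD (co_x _ t))) h2)).1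
      (by convert a3 using 1; group)) a5

include p in
theorem maxD4 : H ≤ (frob _ φ).fix ∨ H = twistedD4 F q := by
  have h := twD4' hφ h3
  have c := adCover chevD4 F
  by_cases e : Rat (adS chevD4 F) H (φ.eqLocusField (.id F)) (rD 17)
  · have e' := h.rat_ρ hH (r := rD 21) pD ((show rD 17 = symD4.ρ (rD 21) by decide +kernel) ▸ e)
    exact .inl (h.le_fix (adCover _ _) hΦ hH (adS_mult _ _) (fun _ _ h => h) p (h.rat_pos c hΦ hH (R := [rD 17, rD 19])
      (by simpa using ⟨e, ratD4 hφ h3 hΦ hH e'⟩) (by decide +kernel)) (orb_compl (by decide +kernel)) (θ := rD 23)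
      (β := rD 18) (i := ⟨0, by decide⟩) (by decide +kernel))
  simp only [Rat, not_forall] at e
  obtain ⟨u, hu, t, ht, e⟩ := e
  obtain ⟨a, b1, b2, b3⟩ := h.tr c hΦ isReflD4 [1, 0, 2, 3] (pD (n := 17)) (pD (n := 18)) (by decide +kernel)
  obtain ⟨a', b4, b5, b6⟩ := h.tr c hΦ isReflD4 [1] (pD (n := 18)) (pD (n := 19)) (by decide +kernel)
  have a1 := b3 t (h.mem_E_top c hΦ hH _ (by decide +kernel) hu ht)
  have a2 := fun a t => h.smul_E c hΦ (pD (n := 18)) (β := rD 14) (a := a) (t := t) (by decide +kernel)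
    fun s hs => by
      rw [twistedD4, ChAut.genSubgroup_eq]
      exact mem_genW (.inl ⟨s, hφ s ▸ hs, d4m2, by simp, congrArg (fun r => [(r, s)]) (by decide +kernel)⟩)
  have a3 : φ (a * t) ≠ a * t := by rw [map_mul, b2]; exact fun e' => e (mul_left_cancel₀ b1 e')
  generalize a * t = s at a1 a3
  have a4 : s ≠ 0 := by rintro rfl; simp at a3
  have a5 := all3 a2 (h.mem_E c hΦ _) a1 a3 h3 (by
    convert a2 (a * (s * φ s * φ (φ s)))⁻¹ _ (by simp only [map_inv₀, map_mul, b2, h3]; ring) (b3 _ (invD4 hφ h3 hΦ hH a1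
      (mul_inv_cancel_left₀ b4 s ▸ b6 _ (a2 _ _ (by simp [b5]) a1)))) using 1
    have := (map_ne_zero φ).2 a4
    have := (map_ne_zero φ).2 this
    field_simp)
  refine .inr (h.eq_of c hΦ hH repsD4 ?_)
  simp only [List.forall_mem_cons, List.not_mem_nil, false_imp_iff, implies_true, and_true]
  exact ⟨⟨orb_sub orbD4_1 (by decide +kernel), .inl (by decide +kernel)⟩, orb_sub orbD4_0 (by decide +kernel), .inr a5⟩

end D4

omit hφ in
/-- From the dichotomy to the maximality of the subfield subgroup. -/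
theorem max_of [Conn D] {Γ M : Subgroup (GL D.Idx F)} (h : Tw S (adS D F) Γ ε φ (frob D φ)) (hφ : ∀ t, φ t = t ^ q)
    (hq : 1 < q) {n : ℕ} (hn : 1 < n) (hK : Nat.card F = q ^ n) {r : Rt D} (hr : Pos r ∧ S.ρ r ≠ r)
    (hM : ∀ g, g ∈ M ↔ g ∈ Γ ∧ ∀ i j, (g : Matrix D.Idx D.Idx F) i j ^ q = (g : Matrix D.Idx D.Idx F) i j)
    (k : ∀ {H}, Γ ⊓ (frob D φ).fix ≤ H → H ≤ Γ → H ≤ (frob D φ).fix ∨ H = Γ) :
    M ≠ Γ ∧ ∀ H, M ≤ H → H ≤ Γ → H = M ∨ H = Γ := by
  obtain rfl : M = Γ ⊓ (frob D φ).fix := Subgroup.ext fun g => by simp only [hM, Subgroup.mem_inf, mem_frob, hφ]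
  refine ⟨fun e => ?_, fun H h1 h2 => (k h1 h2).imp_left fun e => le_antisymm (le_inf h2 e) h1⟩
  obtain ⟨t, ht⟩ : ∃ t, φ t ≠ t := by
    by_contra! e
    have := (card_pow_eq_self hq hK).2.symm.trans (Nat.card_congr (Equiv.subtypeUnivEquiv fun t => hφ t ▸ e t))
    exact (Nat.pow_lt_pow_right hq hn).ne (by rwa [pow_one, ← hK])
  exact h.exists_ne (adCover D F) hr.1 hr.2 ht (inf_eq_left.1 e)

end Cfsg.Agent.SubF
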