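import Cfsg.Agent.SubF.Core
import Cfsg.Agent.Ree.SL2Pres
import Cfsg.Agent.Invol.Basic
import Cfsg.Agent.S0205

/-! Finite overgroups `M` of subfield subgroups: if `α` fixes `M ∩ U` then it fixes `M` (`Loc.le_fix`). -/

set_option autoImplicit false

namespace Cfsg.Agent.SubF

open Cfsg.Lie Cfsg.Agent.Chev Cfsg.Agent.Chev.Sys Cfsg.Agent.ChAut Cfsg.Agent.Classical Cfsg.Agent.Ree
open scoped MatrixGroups

attribute [-simp] zsmul_eq_mul

theorem exists_comm_conj {H : Type*} [Group H] [h : Group.IsSolvable H] [Nontrivial H] :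
    ∃ e : H, e ≠ 1 ∧ ∀ g, Commute e (g * e * g⁻¹) := by
  by_contra! h0
  obtain ⟨n, hn⟩ := h.1
  induction n with
  | zero => exact top_ne_bot hn
  | succ n ih =>
    refine ih (eq_bot_iff.2 fun e he => by_contra fun e1 => ?_)
    obtain ⟨g, hg⟩ := h0 e e1
    exact hg (commutatorElement_eq_one_iff_commute.1 (hn.le (Subgroup.commutator_mem_commutator he
      ((derivedSeries_normal H n).conj_mem e he g))))

variable {F : Type*} [Field F]

theorem sl_pm {e : SL(2, F)} (h1 : e.1 1 0 = 0) (h2 : e.1 0 1 = 0) (h3 : e.1 0 0 = e.1 1 1) : e = 1 ∨ e = -1 := by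
  have d := e.2
  rw [Matrix.det_fin_two, h1, h2, ← h3, mul_zero, sub_zero, mul_self_eq_one_iff] at d
  refine d.imp (fun d => ?_) fun d => ?_ <;> ext i j <;> fin_cases i <;> fin_cases j <;> simp [← h3, h1, h2, d]

theorem neg_one_mem (h2 : (2 : F) ≠ 0) {H : Subgroup SL(2, F)} [Finite H] (hu : uSL 1 ∈ H) {c : F} (hc : c ≠ 0)
    (hl : lSL c ∈ H) : -1 ∈ H := by
  rcases Nat.even_or_odd (Nat.card H) with h | h
  · obtain ⟨e, he⟩ := Invol.exists_invol_of_even h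
    obtain ⟨a1, a2⟩ := Invol.orderOf_two_iff.1 he
    have a3 := fun i j => congrArg (fun e : H => e.1.1 i j) a1
    have d := e.1.2
    rw [Matrix.det_fin_two] at d
    have b1 := a3 0 0; have b2 := a3 0 1; have b3 := a3 1 0; have b4 := a3 1 1
    simp [Matrix.mul_apply] at b1 b2 b3 b4
    have t : e.1.1 0 0 + e.1.1 1 1 ≠ 0 := fun t => h2 (by linear_combination e.1.1 0 0 * t - b1 - d)
    have c1 : e.1.1 0 1 = 0 := mul_left_cancel₀ t (by linear_combination b2)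
    refine ((sl_pm (mul_left_cancel₀ t (by linear_combination b3)) c1 (mul_left_cancel₀ t (by
      linear_combination b1 - b4))).resolve_left fun e' => a2 (Subtype.ext e')) ▸ e.2
  have := S0205.result h
  have : Nontrivial H := ⟨⟨⟨_, hu⟩, 1, by simp⟩⟩
  obtain ⟨e, a1, a2⟩ := exists_comm_conj (H := H)
  have a3 := fun i j => congrArg (fun e : H => e.1.1 i j) (a2 ⟨_, hu⟩)
  have b1 := a3 1 0; have b2 := a3 0 1
  have b3 := congrArg (fun e : H => e.1.1 0 1) (a2 ⟨_, hl⟩)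
  simp [uSL_inv, lSL_inv, Matrix.mul_apply, Matrix.vecMul, dotProduct] at b1 b2 b3
  have c1 : e.1.1 1 0 = 0 := pow_eq_zero_iff two_ne_zero |>.1 (mul_left_cancel₀ h2 (by linear_combination b1))
  have c2 : e.1.1 0 1 = 0 := pow_eq_zero_iff two_ne_zero |>.1 (mul_left_cancel₀ (mul_ne_zero h2 hc)
    (by linear_combination b3))
  rw [c1, c2] at b2
  exact ((sl_pm c1 c2 (sub_eq_zero.1 (pow_eq_zero_iff two_ne_zero |>.1 (by linear_combination -b2)))).resolve_left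
    fun e' => a1 (Subtype.ext e')) ▸ e.2

variable {D : ChevalleyDatum} [Good D] [Conn D] {S : Sym D} {G : Type*} [Group G]
  {X : Sys D F G} {Γ M : Subgroup G} {α : X.Aut (Sym.one D)}

theorem ker_SL2 (c : X.Cover) (m : X.Mult) {r : Rt D} (hr : Pos r) {e : SL(2, F)} (h : sysSL2 m r e = 1) :
    e = 1 ∨ e = -1 := by
  have key : ∀ g e : SL(2, F), sysSL2 m r e = 1 → (g * e * g⁻¹).1 1 0 = 0 := fun g e h => by
    replace h : sysSL2 m r (g * e * g⁻¹) = 1 := by simp [h]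
    generalize g * e * g⁻¹ = e at h
    by_contra h0
    have d := e.2
    rw [Matrix.det_fin_two] at d
    have : e = uSL (e.1 0 0 / e.1 1 0) * (dSL (Units.mk0 _ h0)⁻¹ * wSL) * uSL (e.1 1 1 / e.1 1 0) := by
      ext i j; fin_cases i <;> fin_cases j <;> simp [Matrix.mul_apply] <;> field_simp
      linear_combination -d
    rw [this, map_mul, map_mul, map_mul, sysSL2_u, sysSL2_u, sysSL2_d, sysSL2_w] at h
    have := c.eq_one_of_cell (w := 1 * rW r) ⟨_, X.UP_le_B (X.x_mem_U hr _), _, mul_mem (X.H_le_N (X.h_mem_H _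
      (Units.ne_zero _))) (X.n_mem_N _ (by simp)), (X.mon_h _ (Units.ne_zero _)).mul (X.mon_n _ (by simp)), _,
      X.UP_le_B (X.x_mem_U hr _), h.symm⟩ (one_mem _)
    simpa [rW_smul, refl_self, ng_ne] using congrArg (· • r) this
  have b1 := key 1 e h
  have b2 := key wSL e h
  have b3 := key (lSL 1) e h
  simp [lSL_inv, Matrix.mul_apply, Matrix.vecMul, dotProduct, Matrix.SpecialLinearGroup.coe_inv,
    Matrix.adjugate_fin_two] at b1 b2 b3
  exact sl_pm b1 b2 (by linear_combination b3 - b1 + b2)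

/-- The highest root. -/
def Th (θ : Rt D) : Prop := Pos θ ∧ ∀ r, Pos r →
  (∀ i, rtv r i ≤ rtv θ i) ∧ (r = θ ∨ CommIs D 0 r θ [] ∧ (A θ r = 1 ∨ A θ r = 0 ∧ CommIs D 0 (D.neg θ) r []))

instance instDecidableTh (θ : Rt D) : Decidable (Th θ) := by unfold Th; infer_instance

omit [Conn D] in
theorem Th.comm {θ : Rt D} (h : Th θ) (t : F) : ∀ u ∈ X.UP, Commute u (X.x θ t) := fun u hu =>
  U_induction (P := fun u => Commute u (X.x θ t)) (.one_left _) (fun r hr s _ _ ih => ih.mul_left (by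
    rcases (h.2 r hr).2 with rfl | e
    · exact (X.add ..).symm.trans (add_comm s t ▸ X.add ..)
    · simpa [xN_val] using (X.xN_commute Nat.cast_zero e.1 s t).symm)) hu

omit [Conn D] in
theorem Th.stab {θ : Rt D} (h : Th θ) : X.Stab {θ} := stab_of_upper (fun _ e => e ▸ h.1) fun _ e k hk => by
  subst e
  exact rtv_injective (le_antisymm (h.2 k fun i => (h.1 i).trans (hk i)).1 hk)

namespace Loc

variable (L : Loc S X Γ M α) (c : X.Cover) (m : X.Mult) (hπ : Function.Injective c.π) (p : ℕ) [Fact p.Prime]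
  [CharP F p] [Finite M] {θ : Rt D} (hθ : Th θ) (h1 : X.x θ 1 ∈ M)
include L c m hπ hθ h1

omit hθ h1 in
theorem fix_of_comm {z y : G} (hz : z ∈ M) (h0 : z ≠ 1) {k : ℕ} (hk : z ^ p ^ k = 1) {v : G} (hv : v ∈ X.UP)
    (hv' : v ∈ M) (hv0 : v ≠ 1) (h : Commute z v) (hy : y ∈ M) (h' : Commute y z) : α.σ y = y := by
  obtain ⟨l, hl⟩ := isPGroup_U c p nilp_Pos ⟨v, hv⟩
  exact L.cent_fix c m hπ p ⟨hz, L.cent_fix c m hπ p ⟨hv', L.up v hv hv'⟩ hv0 (congrArg Subtype.val hl) hz h⟩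
    h0 hk hy h'

theorem fix_even (hp : p = 2) (hρ : S.ρ θ = θ) {j : G} (a1 : j ∈ X.UP) (a2 : j ∈ M) (a3 : j * j = 1) {i : Sm D}
    (a4 : j ∉ X.U {r | Pos r ∧ r ≠ sm i})
    (a5 : ln (sm i) ≠ ln θ ∨ S.π i ≠ i ∨ ∃ i' ≠ i, j ∉ X.U {r | Pos r ∧ r ≠ sm i'}) {g : G} (hg : g ∈ M) :
    α.σ (g * X.x θ 1 * g⁻¹) = g * X.x θ 1 * g⁻¹ := by
  subst hp
  have b1 := mul_mem (mul_mem hg h1) (inv_mem hg)
  obtain ⟨k, b2, b3, b4⟩ := Invol.exists_commute_of_not_isConj (x := (⟨j, a2⟩ : M)) (y := ⟨_, b1⟩) (Subtype.ext a3)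
    (Subtype.ext (by simp [← X.add, CharTwo.add_self_eq_zero])) (by
      rw [isConj_comm, isConj_iff]
      rintro ⟨z, hz⟩
      have e : z * g * X.x θ 1 * (z * g)⁻¹ = j := by simpa [mul_assoc] using congrArg Subtype.val hz
      obtain ⟨w, hw⟩ := exists_cell (L.fold.le (L.le (mul_mem z.2 hg)))
      have key : ∀ i, j ∉ X.U {r | Pos r ∧ r ≠ sm i} → w • θ = sm i := fun i hi => by
        obtain ⟨_, rfl, d1, d2⟩ := c.conj_root hw hθ.stab (stab_lvl 1) (stab_sm i) (X.x_mem_single θ 1)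
          (by rwa [e, nilp_Pos.lvl_one]) (e ▸ hi)
        exact not_not.1 fun e => d2 ⟨d1.1, e⟩
      rcases a5 with h | h | ⟨i', h, h'⟩
      · exact h (by rw [← key i a4, ln_smul])
      · exact h (sm_injective (by
          rw [← S.ρ_sm, ← key i a4, ← S.smul_ρ (L.fold.stable.exists_canon c (L.le (mul_mem z.2 hg)) hw).1, hρ]))
      · exact h (sm_injective ((key i' h').symm.trans (key i a4))))
  obtain ⟨b5, b6⟩ := Invol.orderOf_two_iff.1 b2
  exact L.fix_of_comm c m hπ 2 (Subtype.prop _) (fun e => b6 (Subtype.ext e)) (k := 1)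
    ((sq _).trans (congrArg Subtype.val b5)) a1 a2 (fun e => a4 (e ▸ one_mem _)) (b3.map M.subtype) b1
    (b4.map M.subtype).symm

theorem fix_odd (hp : p ≠ 2) {e : G} (a1 : e ∈ M) (a2 : e ≠ 1) (a3 : e ∈ X.U {r | Pos r ∧ A θ r = 0})
    (a4 : ∀ u ∈ X.U {r | Pos r ∧ A θ r = 0}, Commute u e) {g : G} (hg : g ∈ M) :
    α.σ (g * X.x θ 1 * g⁻¹) = g * X.x θ 1 * g⁻¹ := by
  have h2 : (2 : F) ≠ 0 := fun h => hp ((Nat.prime_dvd_prime_iff_eq Fact.out Nat.prime_two).1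
    ((CharP.cast_eq_zero_iff F p 2).1 h))
  have b1 := mul_mem (mul_mem hg h1) (inv_mem hg)
  have x1 : X.x θ 1 ≠ 1 := fun e => one_ne_zero (c.x_eq_one e)
  have xU := X.x_mem_U (S := {r | Pos r}) hθ.1 1
  obtain ⟨w, -, u, n, u', d1, d2, -, -, ⟨s, -, d3⟩, -, d4, -, rfl⟩ := canon L.fold c (L.le hg)
  have e1 : u * n * u' * X.x θ 1 * (u * n * u')⁻¹ = u * X.x (w • θ) (s θ * 1) * u⁻¹ := by
    rw [← d3, mul_assoc (u * n), (hθ.comm 1 u' d4).eq]; group
  have e2 : u * X.x θ 1 * u⁻¹ = X.x θ 1 := by rw [(hθ.comm 1 u d1).eq, mul_inv_cancel_right]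
  rw [e1] at b1 ⊢
  by_cases hw : w • θ = ng θ
  · rw [hw] at b1 ⊢
    let ψ := (MulAut.conj u).toMonoidHom.comp (sysSL2 m θ)
    have f1 : -1 ∈ M.comap ψ := by_contra fun h => h (by
      have : Finite (M.comap ψ) := Finite.of_injective (fun y => (⟨ψ y, y.2⟩ : M)) fun y z h' => by
        have h3 : ψ (y.1 * z.1⁻¹) = 1 := by rw [map_mul, map_inv, Subtype.mk.inj h', mul_inv_cancel]
        exact Subtype.ext (mul_inv_eq_one.1 ((ker_SL2 c m hθ.1 ((MulAut.conj u).map_eq_one_iff.1 h3)).resolve_right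
          fun h4 => h (h4 ▸ (y * z⁻¹).2)))
      exact neg_one_mem h2 (by simpa [ψ, sysSL2_u, e2]) (c := s θ * 1) (by simp) (by simpa [ψ, sysSL2_l] using b1))
    have f2 : ψ (-1) = u * X.h θ (-1) * u⁻¹ := by
      rw [show (-1 : SL(2, F)) = dSL (-1) by ext i j; fin_cases i <;> fin_cases j <;> simp]
      simp [ψ, sysSL2_d]
    have f3 := L.cent_fix c m hπ p ⟨h1, L.up _ xU h1⟩ x1 (k := 1) (by
      obtain ⟨t, ht⟩ : ∃ f : Multiplicative F →* G, ∀ t, f (.ofAdd t) = X.x θ t :=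
        ⟨MonoidHom.mk' (fun t => X.x θ t.toAdd) fun _ _ => X.add .., fun _ => rfl⟩
      rw [← ht, ← map_pow, ← ofAdd_nsmul, ht]; simp) f1 (by
      rw [← e2, ← sysSL2_u m]; exact (Commute.neg_one_left _).map ψ)
    have f4 : α.σ (X.h θ (-1)) = X.h θ (-1) := by
      have := (c.x_eq one_ne_zero ((L.up _ xU h1).symm.trans (α.σ_x θ 1))).2
      rw [α.σ_h, map_neg, ← this, h_one]; simp [Sym.one]
    have f5 := c.mem_U_of_conj m nilp_Pos (mul_mem (inv_mem d1) (α.σ_mem_UP d1)) (a := fun i => (-1) ^ cov θ i) (by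
      rw [← m.h_eq_tor]
      simp only [f2, map_mul, map_inv, f4] at f3
      rw [mul_inv_eq_iff_eq_mul] at f3 ⊢
      simp only [mul_assoc, Units.val_neg, Units.val_one] at f3 ⊢
      rw [f3, inv_mul_cancel_left])
    have f6 : Commute (u⁻¹ * α.σ u) e := U_induction (P := fun u => Commute u e) (.one_left _)
      (fun r hr t _ _ ih => ih.mul_left (by
        rcases (hθ.2 r hr.1).2 with rfl | ⟨-, h | h⟩
        · exact (hθ.comm t e (X.U_mono (fun _ h => h.1) a3)).symm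
        · have := (c.x_eq (by simp) ((m.tor_conj _ r 1).symm.trans (m.h_eq_tor θ (-1) ▸ X.h_conj θ r (by simp) 1))).2
          rw [hr.2, h] at this
          exact (h2 (by simp at this; linear_combination this)).elim
        · exact a4 _ (X.x_mem_U (And.intro hr.1 h.1) t))) f5
    have f7 := X.U_mono (fun _ h => h.1) a3
    have f8 := mul_mem (mul_mem d1 f7) (inv_mem d1)
    have f9 : α.σ (u * e * u⁻¹) = u * e * u⁻¹ := by
      rw [map_mul, map_mul, map_inv, L.up e f7 a1, ← mul_inv_cancel_left u (α.σ u), mul_assoc u, f6.eq]; group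
    obtain ⟨k, hk⟩ := isPGroup_U c p nilp_Pos ⟨_, f8⟩
    refine L.cent_fix c m hπ p ⟨L.up' _ f8 (mul_mem (mul_mem d2 (L.le a1)) (inv_mem d2)) f9, f9⟩
      (by simpa [mul_inv_eq_one] using a2) (congrArg Subtype.val hk) b1 (Commute.map ?_ (MulAut.conj u))
    exact U_induction (P := fun u => Commute _ u) (.one_right _) (fun r hr t _ _ ih => ih.mul_right (by
      rcases (hθ.2 r hr.1).2 with rfl | ⟨-, h | h⟩
      · simpa [A_self] using hr.2
      · simpa [h] using hr.2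
      · simpa [xN_val, ← ng_val] using (X.xN_commute Nat.cast_zero h.2 _ t).symm)) a3
  obtain ⟨φ, f1, f2⟩ : ∃ φ : Fn D, 0 < φ (rtv θ) ∧ 0 < φ (rtv (w • θ)) := by
    by_cases e : w • θ = θ
    · exact ⟨htF D, nilp_Pos.pos _ hθ.1, e.symm ▸ nilp_Pos.pos _ hθ.1⟩
    obtain ⟨φ, f1, f2⟩ := exists_fn e hw
    obtain ⟨φ', f3, f4⟩ := exists_fn (Ne.symm e) (eq_ng_iff.not.1 hw)
    exact ⟨φ + φ', by simpa [f1], by simpa [f3]⟩
  let P := (X.U {r | 0 < φ (rtv r)}).map (MulAut.conj u).toMonoidHom ⊓ M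
  have f3 : IsPGroup p P := ((isPGroup_U c p (nilp_pos φ)).map _).to_inf_left
  have : Finite P := Finite.of_injective _ (Subgroup.inclusion_injective inf_le_right)
  have f4 : X.x θ 1 ∈ P := ⟨⟨_, X.x_mem_U f1 1, e2⟩, h1⟩
  have : Nontrivial P := ⟨⟨⟨_, f4⟩, 1, by simpa⟩⟩
  have := f3.center_nontrivial
  obtain ⟨⟨z, f5⟩, f6⟩ := exists_ne (1 : Subgroup.center P)
  obtain ⟨k, hk⟩ := f3 z
  have f7 := fun y => congrArg Subtype.val (Subgroup.mem_center_iff.1 f5 y)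
  exact L.fix_of_comm c m hπ p z.2.2 (fun e => f6 (Subtype.ext (Subtype.ext e))) (congrArg Subtype.val hk) xU h1
    x1 (f7 ⟨_, f4⟩).symm b1 (f7 ⟨_, ⟨_, X.x_mem_U f2 _, rfl⟩, b1⟩)

theorem le_fix (hρ : S.ρ θ = θ) (hodd : p ≠ 2 → ∃ e ∈ M, e ≠ 1 ∧ e ∈ X.U {r | Pos r ∧ A θ r = 0} ∧
      ∀ u ∈ X.U {r | Pos r ∧ A θ r = 0}, Commute u e)
    (heven : p = 2 → ∃ j ∈ X.UP, j ∈ M ∧ j * j = 1 ∧ ∃ i, j ∉ X.U {r | Pos r ∧ r ≠ sm i} ∧
      (ln (sm i) ≠ ln θ ∨ S.π i ≠ i ∨ ∃ i' ≠ i, j ∉ X.U {r | Pos r ∧ r ≠ sm i'})) : M ≤ α.fix := fun g hg => by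
  obtain ⟨l, hl⟩ := isPGroup_U c p nilp_Pos ⟨_, X.x_mem_U hθ.1 1⟩
  refine L.fix_of_conj c m hπ p (fun e => one_ne_zero (c.x_eq_one e)) (congrArg Subtype.val hl) (hθ.comm 1) hg
    (Subgroup.mem_inf.2 ⟨mul_mem (mul_mem hg h1) (inv_mem hg), ?_⟩)
  by_cases hp : p = 2
  · obtain ⟨j, a1, a2, a3, i, a4, a5⟩ := heven hp
    exact L.fix_even c m hπ p hθ h1 hp hρ a1 a2 a3 a4 a5 hg
  · obtain ⟨e, a1, a2, a3, a4⟩ := hodd hp
    exact L.fix_odd c m hπ p hθ h1 hp a1 a2 a3 a4 hg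

end Loc

end Cfsg.Agent.SubF
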