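import Cfsg.Agent.SubF.Unt

/-! Overgroups of the subfield subgroup in a twisted group: general part (`Tw`). -/

set_option autoImplicit false

namespace Cfsg.Agent.SubF

open Cfsg.Lie Cfsg.Agent.Chev Cfsg.Agent.Chev.Sys

attribute [-simp] zsmul_eq_mul

variable {D : ChevalleyDatum} [Good D] {S : Sym D} {F : Type*} [Field F] {G : Type*} [Group G]
  {X : Sys D F G} {Γ H : Subgroup G} {ε : Rt D → ℤ} {φ : F →+* F}

variable (S) in
/-- The orbit of a root. -/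
abbrev Ob (r : Rt D) : Set (Rt D) := insert r (orbE S r)

theorem mem_Ob {r k : Rt D} : k ∈ Ob S r ↔ k = r ∨ k = S.ρ r ∨ k = S.ρ (S.ρ r) := by
  simp only [orbE, Set.mem_insert_iff, Set.mem_ofPred_eq]; tauto

instance instDecidableOb (r : Rt D) : DecidablePred (· ∈ Ob S r) := fun _ => decidable_of_iff _ mem_Ob.symm

variable (S ε) in
/-- The combinatorial conditions. -/
def Cmb : Prop := ∀ r : Rt D, ht (S.ρ r) = ht r ∧ (S.ρ (S.ρ (S.ρ r)) = r ∨ S.ρ (S.ρ r) = r) ∧ (ε r = 1 ∨ ε r = -1) ∧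
  (S.ρ r = r → ε r = 1) ∧ (∀ a ∈ [r, S.ρ r, S.ρ (S.ρ r)], ∀ b ∈ [r, S.ρ r, S.ρ (S.ρ r)], 0 ≤ A a b) ∧
    ∀ k, A r k ≤ 1 ∨ k = r

instance instDecidableCmb : Decidable (Cmb S ε) := by unfold Cmb; infer_instance

theorem Cmb.ht (h : Cmb S ε) (r : Rt D) : ht (S.ρ r) = ht r := (h r).1

theorem Cmb.sub (h : Cmb S ε) {r : Rt D} (hr : Pos r) : Ob S r ⊆ Lv (Chev.ht r) :=
  Set.insert_subset ⟨hr, le_rfl⟩ ((orbE_sub h.ht hr).trans Set.sdiff_subset)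

theorem Cmb.nilp (h : Cmb S ε) {r : Rt D} (hr : Pos r) : Nilp (htF D) (Ob S r) :=
  ⟨fun k hk => nilp_Pos.pos k (h.sub hr hk).1, fun a ha b hb k ⟨i, j, hi, hj, e⟩ => by
    have h1 := congrArg (AL a) e
    simp only [map_add, map_smul, AL_rtv, A_self, smul_eq_mul] at h1
    have h2 := mul_nonneg (zero_le_one.trans hj) ((h r).2.2.2.2.1 a (by simpa using mem_Ob.1 ha) b
      (by simpa using mem_Ob.1 hb))
    exact ((h a).2.2.2.2.2 k).resolve_left (by omega) ▸ ha⟩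

variable (S X Γ φ ε) in
/-- A twisted group with its field automorphism. -/
structure Tw (α : X.Aut (Sym.one D)) : Prop where
  cmb : Cmb S ε
  fold : X.Fold S Γ
  gen : Γ ≤ (X.UP ⊓ Γ) ⊔ (X.UN ⊓ Γ)
  a : ∀ r t, α.a r t = φ t
  map : ∀ y ∈ Γ, α.σ y ∈ Γ
  co : ∀ r, Pos r → ∀ u ∈ Γ, ∀ t, Co X r u t → Co X (S.ρ r) u (ε r * φ t)
  ex : ∀ r, Pos r → ∀ t, (S.ρ r = r → φ t = t) → ∃ y ∈ Γ, y ∈ X.U (Ob S r) ∧ Co X r y t
  neg : ∀ i, ∃ v ∈ X.U {r | ¬ Pos r ∧ InJ (S.orb i) r}, v ∈ Γ ⊓ α.fix ∧ v ≠ 1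

variable (X S H) in
/-- The parameters of the orbit elements in `H`. -/
def E {r : Rt D} (hr : Pos r) : AddSubgroup F where
  carrier := {t | ∃ y ∈ H, y ∈ X.U (Ob S r) ∧ Co X r y t}
  zero_mem' := ⟨1, one_mem _, one_mem _, co_zero.2 (one_mem _)⟩
  add_mem' := fun ⟨_, a, b, c⟩ ⟨_, d, e, f⟩ => ⟨_, mul_mem a d, mul_mem b e, c.mul hr f⟩
  neg_mem' := fun ⟨_, a, b, c⟩ => ⟨_, inv_mem a, inv_mem b, c.inv hr⟩

namespace Tw

variable {α : X.Aut (Sym.one D)} (h : Tw S X Γ ε φ α) (c : X.Cover)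
include h

theorem co0 : ∀ r, Pos r → ∀ u ∈ Γ, Co X r u 0 → Co X (S.ρ r) u 0 := fun r hr u hu e => by simpa using h.co r hr u hu 0 e

include c

section

variable {r : Rt D} (hr : Pos r) {u y y' : G} {t : F}
include hr

theorem diff {T : Set (Rt D)} (hT : Nilp (htF D) T) (hu : u ∈ Γ) (h1 : u ∈ X.U T) (h2 : Co X r u 0) :
    u ∈ X.U (T \ Ob S r) := mem_diff c hT h1 fun k hk => by
  have a := h.co0 r hr u hu h2
  rcases mem_Ob.1 hk with rfl | rfl | rfl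
  exacts [co_zero.1 h2, co_zero.1 a, co_zero.1 (h.co0 _ (S.pos_ρ.2 hr) u hu a)]

theorem uniq (h1 : y ∈ Γ) (h2 : y ∈ X.U (Ob S r)) (h3 : Co X r y t) (h4 : y' ∈ Γ) (h5 : y' ∈ X.U (Ob S r))
    (h6 : Co X r y' t) : y = y' := by
  have := h.diff c hr (h.cmb.nilp hr) (mul_mem (inv_mem h1) h4) (mul_mem (inv_mem h2) h5)
    (neg_add_cancel t ▸ (h3.inv hr).mul hr h6)
  rwa [Set.sdiff_self, U_empty, Subgroup.mem_bot, inv_mul_eq_one] at this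

theorem rat_fix (e : S.ρ r = r) (hu : u ∈ Γ) (h1 : Co X r u t) : φ t = t := by
  have := h.co r hr u hu t h1
  rw [e, (h.cmb r).2.2.2.1 e, Int.cast_one, one_mul] at this
  exact this.unique hr c h1

theorem ex' (hu : u ∈ Γ) (h1 : Co X r u t) : ∃ y ∈ Γ, y ∈ X.U (Ob S r) ∧ Co X r y t :=
  h.ex r hr t fun e => h.rat_fix c hr e hu h1

omit c hr in
theorem co_σ (h1 : Co X r u t) : Co X r (α.σ u) (φ t) := h.a r t ▸ h1.σ (fun _ => rfl) α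

theorem exΦ (ht : φ t = t) : ∃ y ∈ Γ ⊓ α.fix, y ∈ X.U (Ob S r) ∧ Co X r y t := by
  obtain ⟨y, a1, a2, a3⟩ := h.ex r hr t fun _ => ht
  exact ⟨y, ⟨a1, h.uniq c hr (h.map y a1) (α.σ_mem_U (fun _ h => h) a2) (ht ▸ h.co_σ a3) a1 a2 a3⟩, a2, a3⟩

theorem mem_orbE (h1 : y ∈ X.U (Ob S r)) (h2 : Co X r y t) : (X.x r t)⁻¹ * y ∈ X.U (orbE S r) :=
  X.U_mono (fun _ hk => hk.1.resolve_left hk.2.2) ((c.U_inf_U (h.cmb.nilp hr) (stab_N (X := X) r).nilp).le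
    ⟨Subgroup.mul_mem _ (Subgroup.inv_mem _ (X.x_mem_U (.inl rfl) t)) h1, h2⟩)

theorem mem_of_E (hH : H ≤ Γ) (h1 : y ∈ Γ) (h2 : y ∈ X.U (Ob S r)) (h3 : Co X r y t) (ht : t ∈ E S X H hr) : y ∈ H := by
  obtain ⟨y', a1, a2, a3⟩ := ht
  exact h.uniq c hr (hH a1) a2 a3 h1 h2 h3 ▸ a1

theorem split (h1 : y ∈ X.U (Ob S r)) (h2 : u ∈ X.U (Lv (ht r + 1))) (h3 : y * u ∈ Γ) : y ∈ Γ := by
  obtain ⟨t, ht⟩ := exists_co (r := r) (X.U_mono (h.cmb.sub hr) h1)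
  have a0 : ∀ k ∈ Ob S r, u ∈ X.U (Lv (Chev.ht k) \ {k}) := fun k hk => X.U_mono (fun j hj => by
    have := hj.2
    rcases mem_Ob.1 hk with rfl | rfl | rfl <;>
      exact ⟨⟨hj.1, by (try simp only [h.cmb.ht]); omega⟩, by
        rintro rfl; (try simp only [h.cmb.ht] at this); omega⟩) h2
  have a1 := ht.mul hr (co_zero.2 (a0 r (.inl rfl)))
  obtain ⟨z, b1, b2, b3⟩ := h.ex' c hr h3 a1
  have b4 := h.diff c hr (stab_Lv (X := X) _).nilp (mul_mem (inv_mem b1) h3) (mul_mem (inv_mem (b3.mem hr)) (a1.mem hr))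
    (neg_add_cancel (t + 0) ▸ (b3.inv hr).mul hr a1)
  have b5 := mem_diff c (h.cmb.nilp hr) (mul_mem (inv_mem b2) h1) (E := Ob S r) fun k hk => by
    simpa [mul_assoc] using mul_mem (X.U_mono (T := Lv (Chev.ht k) \ {k}) (fun j hj => ⟨by
      rcases mem_Ob.1 hk with rfl | rfl | rfl <;> simpa only [Lv, h.cmb.ht] using hj.1,
      by rintro rfl; exact hj.2 hk⟩) b4) (inv_mem (a0 k hk))
  rw [Set.sdiff_self, U_empty, Subgroup.mem_bot, inv_mul_eq_one] at b5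
  exact b5 ▸ b1

theorem E_conj {s : Rt D} (hs : Pos s) {n : G} {w : WG D} (h1 : n ∈ H) (h2 : X.Mon n w) (hw : w ∈ S.W1) (e : w • r = s)
    {t' : F} (h3 : n * X.x r t * n⁻¹ = X.x s t') (ht : t ∈ E S X H hr) : t' ∈ E S X H hs := by
  obtain ⟨y, a1, a2, a3⟩ := ht
  have a4 := h2.conj_mem_U (T := orbE S s) (fun k hk => ⟨fun e' => hk.1 (MulAction.injective w (e'.trans e.symm)), by
    rcases hk.2 with rfl | rfl <;> simp [S.smul_ρ hw, e]⟩) (h.mem_orbE c hr a2 a3)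
  have a5 : n * y * n⁻¹ = X.x s t' * (n * ((X.x r t)⁻¹ * y) * n⁻¹) := by rw [← h3]; group
  exact ⟨_, mul_mem (mul_mem h1 a1) (inv_mem h1), a5 ▸ mul_mem (X.x_mem_U (.inl rfl) _)
    (X.U_mono (Set.subset_insert _ _) a4), by
      rw [Co, a5, inv_mul_cancel_left]; exact X.U_mono (orbE_sub h.cmb.ht hs) a4⟩

end

theorem strip' {M : Subgroup G} (hM : M ≤ Γ) (hΦ : Γ ⊓ α.fix ≤ M) {m : ℤ}
    (hY : ∀ r ∈ Lv m, ∀ u ∈ M, ∀ t, Co X r u t → φ t = t) : ∀ u ∈ X.U (Lv m), u ∈ M → u ∈ Γ ⊓ α.fix :=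
  strip (S := S) c h.cmb.ht (fun r => (h.cmb r).2.1) (fun r hr u hu => h.co0 r hr u (hM hu)) fun r hr u hu t ht => by
    obtain ⟨y, a1, a2⟩ := h.exΦ c hr.1 (hY r hr u hu t ht)
    exact ⟨y, ⟨hΦ a1, a1⟩, a2⟩

theorem exists_ne {r : Rt D} (hr : Pos r) (e : S.ρ r ≠ r) {t : F} (ht : φ t ≠ t) : ¬ Γ ≤ α.fix := fun hle => by
  obtain ⟨y, a1, -, a3⟩ := h.ex r hr t fun e' => absurd e' e
  exact ht (Co.unique hr c (Aut.mem_fix.1 (hle a1) ▸ h.co_σ a3) a3)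

omit h in
theorem not_mem {i : Sm D} {y : G} (h2 : Co X (sm i) y 1) : y ∉ X.U {r | Pos r ∧ r ≠ sm i} := by
  simpa using c.x_mul_not_mem (stab_sm (X := X) i).nilp (fun k hk => ⟨hk.1.1, hk.2⟩) (pos_sm i) (by simp)
    one_ne_zero h2

variable [Conn D]

theorem foldΦ : X.Fold S (Γ ⊓ α.fix) := (Fold.of c (Φ := Γ ⊓ α.fix) (fun u hu n hn w hw u' hu' e => by
    obtain ⟨a1, a2, a3⟩ := h.fold.stable u hu n hn w hw u' hu' e.1
    obtain ⟨-, a4, a5⟩ := α.stable c u hu n hn w hw u' hu' e.2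
    exact ⟨a1, ⟨a2, a4⟩, a3, a5⟩) le_rfl (inf_le_left.trans h.fold.le) (fun _ => inf_le_right) h.neg fun i => by
  obtain ⟨y, a1, -, a3⟩ := h.exΦ c (pos_sm i) (map_one φ)
  exact ⟨y, X.U_mono (fun _ h => h.1) (a3.mem (pos_sm i)), a1, not_mem c a3⟩).1

variable (hΦ : Γ ⊓ α.fix ≤ H) (hH : H ≤ Γ)
include hΦ hH

omit [Conn D] hH in
theorem hZ : ∀ r, Pos r → ∃ v ∈ X.U (orbE S r), X.x r 1 * v ∈ H := fun r hr => by
  obtain ⟨y, a1, a2, a3⟩ := h.exΦ c hr (map_one φ)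
  exact ⟨_, h.mem_orbE c hr a2 a3, by simpa using hΦ a1⟩

omit [Conn D] hΦ c in
theorem rat_ρ {r : Rt D} (hr : Pos r) (e : Rat X H (φ.eqLocusField (.id F)) (S.ρ r)) :
    Rat X H (φ.eqLocusField (.id F)) r := fun u hu t ht => by
  have : φ (ε r * φ t) = ε r * φ t := e u hu _ (h.co r hr u (hH hu) t ht)
  rcases (h.cmb r).2.2.1 with e | e <;> exact φ.injective (by simpa [e] using this)

omit [Conn D] in
theorem rat_pos {R : List (Rt D)} (hR : ∀ r ∈ R, Rat X H (φ.eqLocusField (.id F)) r)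
    (k : ∀ r : Rt D, Pos r → Push S [1, -1] r ∨ S.ρ r = r ∨ ∃ s ∈ R, s ∈ Ob S r) (r : Rt D) (hr : Pos r) :
    Rat X H (φ.eqLocusField (.id F)) r := by
  refine rat_all c h.cmb.ht (h.hZ c hΦ) (L := [1, -1]) (by simp) (m := 0) (fun r hr => (k r hr.1).imp_right ?_) r
    ⟨hr, hr.ht_pos.le⟩
  rintro (e | ⟨s, a1, a2⟩)
  · exact fun u hu t ht => h.rat_fix c hr.1 e (hH hu) ht
  rcases mem_Ob.1 a2 with rfl | rfl | rfl
  exacts [hR _ a1, h.rat_ρ hH hr.1 (hR _ a1), h.rat_ρ hH hr.1 (h.rat_ρ hH (S.pos_ρ.2 hr.1) (hR _ a1))]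

theorem le_fix (m : X.Mult) (hπ : Function.Injective c.π) (p : ℕ) [Fact p.Prime] [CharP F p] [Finite H]
    (hR : ∀ r, Pos r → Rat X H (φ.eqLocusField (.id F)) r) (ho : ∀ i, (S.orb i)ᶜ.Nonempty) {θ β : Rt D} {i : Sm D}
    (k : Th θ ∧ S.ρ θ = θ ∧ S.π i ≠ i ∧ Pos β ∧ ∀ s ∈ Ob S β, A θ s = 0 ∧
      ∀ r : Rt D, Pos r → A θ r = 0 → r = s ∨ CommIs D 0 r s []) : H ≤ α.fix := by
  have L : Loc S X Γ H α :=
    { fold := h.fold
      le := hH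
      map := h.map
      up := fun u hu hu' => (h.strip' c hH hΦ (m := 0) (fun r hr => hR r hr.1) u
        (X.U_mono (fun k hk => And.intro hk (Pos.ht_pos hk).le) hu) hu').2
      up' := fun u _ h1 h2 => hΦ ⟨h1, h2⟩
      exN := fun i => ((h.foldΦ c).exN i).imp fun n hn => ⟨hn.1, hn.2.1, hΦ hn.2.2, hn.2.2.2⟩
      ht := h.cmb.ht
      orb := ho
      top := fun r hr => ⟨1, one_ne_zero, (h.hZ c hΦ r hr).imp fun v hv => ⟨X.U_mono (fun k hk => And.intro hk.1 (by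
        rcases hk.2 with rfl | rfl <;> simp [Equiv.Perm.SameCycle.refl])) hv.1, hv.2⟩⟩ }
  obtain ⟨k1, k2, k3, k4, k5⟩ := k
  obtain ⟨v, a1, a2⟩ := h.hZ c hΦ θ k1.1
  have a3 := X.U_mono (T := ∅) (fun k hk => hk.1 (by simpa [k2] using hk.2)) a1
  rw [U_empty, Subgroup.mem_bot] at a3
  refine L.le_fix c m hπ p k1 (by simpa [a3] using a2) k2 (fun _ => ?_) fun hp => ?_
  · obtain ⟨y, b1, b2, b3⟩ := h.exΦ c k4 (map_one φ)
    refine ⟨y, hΦ b1, fun e => one_ne_zero (b3.unique k4 c (e ▸ co_zero.2 (one_mem _))), X.U_mono (fun s hs =>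
      And.intro (h.cmb.sub k4 hs).1 (k5 s hs).1) b2, fun u hu => U_induction (P := fun u => Commute u y) (.one_left _)
        (fun r hr t _ _ ih => ih.mul_left ?_) hu⟩
    refine U_induction (P := fun y => Commute _ y) (.one_right _) (fun s hs t' _ _ ih => ih.mul_right ?_) b2
    rcases (k5 s hs).2 r hr.1 hr.2 with rfl | e
    · exact (X.add ..).symm.trans (add_comm t _ ▸ X.add ..)
    · simpa [xN_val] using (X.xN_commute Nat.cast_zero e t _).symm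
  subst hp
  obtain ⟨y, b1, b2, b3⟩ := h.exΦ c (pos_sm i) (map_one φ)
  exact ⟨y, X.U_mono (fun _ h => h.1) (b3.mem (pos_sm i)), hΦ b1, h.uniq c (pos_sm i) (mul_mem b1.1 b1.1)
    (mul_mem b2 b2) (b3.mul (pos_sm i) b3) (one_mem _) (one_mem _) (CharTwo.add_self_eq_zero (1 : F) ▸
      co_zero.2 (one_mem _)), i, not_mem c b3, .inr (.inl k3)⟩

omit [Conn D] in
theorem mem_E_top {r : Rt D} (hr : Pos r) (k : ∀ s : Rt D, ht r ≤ ht s → s ∈ Ob S r ∨ ht r < ht s ∧ S.ρ s = s)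
    {u : G} {t : F} (hu : u ∈ H) (h1 : Co X r u t) : t ∈ E S X H hr := by
  obtain ⟨y, a1, a2, a3⟩ := h.ex' c hr (hH hu) h1
  have a4 := mul_mem (inv_mem a1) (hH hu)
  have a5 := h.diff c hr (stab_Lv (X := X) _).nilp a4 (mul_mem (inv_mem (a3.mem hr)) (h1.mem hr))
    (neg_add_cancel t ▸ (a3.inv hr).mul hr h1)
  have a6 := h.strip' c le_rfl inf_le_left (m := ht r + 1) (fun s hs u hu t ht => h.rat_fix c hs.1
    ((k s (by linarith [hs.2])).elim (fun e => by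
      have := hs.2
      rcases mem_Ob.1 e with rfl | rfl | rfl <;> (try simp only [h.cmb.ht] at this) <;> omega) (·.2)) hu ht) _
    (X.U_mono (fun s hs => And.intro hs.1.1 ((k s hs.1.2).resolve_left hs.2).1) a5) a4
  exact ⟨y, by simpa using mul_mem hu (inv_mem (hΦ a6)), a2, a3⟩

omit hH in
theorem tr {T : ℕ} (hT : IsRefl D T) (l : List ℕ) {r s : Rt D} (hr : Pos r) (hs : Pos s)
    (k : (∀ i ∈ l, i < D.rank) ∧ wact T l r = s ∧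
      ∀ a : Rt D, ∃ e : wact T l a < D.nroots, wact T l (S.ρ a) = S.ρ ⟨_, e⟩) :
    ∃ a ≠ 0, φ a = a ∧ ∀ t ∈ E S X H hr, a * t ∈ E S X H hs := by
  have hw : wd D l ∈ S.W1 := S.mem_W1_of fun a => Fin.ext (by
    obtain ⟨e, e'⟩ := k.2.2 a
    rw [hT.wd_smul k.1, e', show wd D l • a = ⟨_, e⟩ from Fin.ext (hT.wd_smul k.1 a)])
  have e : wd D l • r = s := Fin.ext ((hT.wd_smul k.1 r).trans k.2.1)
  obtain ⟨n, -, a2, a3⟩ := (h.foldΦ c).exists_N hw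
  obtain ⟨a, -, a4⟩ := id a2
  refine ⟨a r, (a r).ne_zero, ?_, fun t => h.E_conj c hr hs (hΦ a3) a2 hw e (e ▸ a4 r t)⟩
  have a5 := congrArg α.σ (a4 r 1)
  rw [map_mul, map_mul, map_inv, show α.σ n = n from a3.2, α.σ_x, α.σ_x, h.a, h.a, map_one, mul_one] at a5
  exact (c.x_eq (a r).ne_zero (((mul_one (a r : F) ▸ a4 r 1).symm.trans a5))).2.symm

omit hH in
theorem smul_E {r β : Rt D} (hr : Pos r) (k : Pos β ∧ S.ρ β = β ∧ A β r = -1)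
    (hβ : ∀ s, φ s = s → gword X.x [(D.neg β, s)] ∈ Γ)
    {a t : F} (ha : φ a = a) (ht : t ∈ E S X H hr) : a * t ∈ E S X H hr := by
  by_cases e : a = 0
  · simp [e]
  have a1 : ∀ r s, φ s = s → X.x r s ∈ α.fix := fun r s hs => (α.σ_x r s).trans (by rw [h.a, hs]; rfl)
  refine h.E_conj c hr hr (hΦ (X.h_mem1 φ (fun s hs => ?_) (fun s hs => ?_) (t := a⁻¹) (by simp [ha])))
    (X.mon_h β (inv_ne_zero e)) (one_mem _) (one_smul _ _) (by simp [X.h_conj _ _ (inv_ne_zero e), k.2.2]) ht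
  · obtain ⟨y, b1, b2, b3⟩ := h.ex β k.1 s fun _ => hs
    have b4 := X.U_mono (T := ∅) (fun j hj => hj.1 (by simpa [k.2.1] using hj.2)) (h.mem_orbE c k.1 b2 b3)
    rw [U_empty, Subgroup.mem_bot, inv_mul_eq_one] at b4
    simpa [gword_cons] using And.intro (b4 ▸ b1) (a1 β s hs)
  · exact ⟨hβ s hs, by simpa [← ng_val, gword_cons] using a1 _ s hs⟩

theorem eq_of {R : List (Sm D)} (hR : S.Reps R) (k : ∀ j ∈ R, {r | Pos r ∧ InJ (S.orb j) r} ⊆ Ob S (sm j) ∧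
    (S.ρ (sm j) = sm j ∨ ∀ t, t ∈ E S X H (pos_sm j))) : H = Γ := by
  have a1 : X.UP ⊓ Γ ≤ H := h.fold.stable.UI_le (fun i => by
    obtain ⟨n, a1, a2, a3⟩ := (h.foldΦ c).exN i
    exact ⟨n, ⟨a1, a3.1⟩, a2, fun z hz => mul_mem (mul_mem (inv_mem (hΦ a3)) hz) (hΦ a3)⟩) fun i => by
      rw [Sym.w1, UI_w0]
      refine hR.forall_orb (P := fun J => X.U {r | Pos r ∧ InJ J r} ⊓ Γ ≤ H) (fun j hj y hy => ?_) i
      have a4 := X.U_mono (k j hj).1 hy.1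
      obtain ⟨t, ht⟩ := exists_co (r := sm j) (X.U_mono (h.cmb.sub (pos_sm j)) a4)
      refine h.mem_of_E c _ hH hy.2 a4 ht ((k j hj).2.elim (fun e => ?_) (· t))
      obtain ⟨z, b1, b2⟩ := h.exΦ c (pos_sm j) (h.rat_fix c (pos_sm j) e hy.2 ht)
      exact ⟨z, hΦ b1, b2⟩
  refine le_antisymm hH (h.gen.trans (sup_le a1 fun v hv => ?_))
  obtain ⟨n, -, a2, a3⟩ := (h.foldΦ c).exists_N0
  exact (H.mul_mem_cancel_left (hΦ a3)).1 ((H.mul_mem_cancel_right (inv_mem (hΦ a3))).1 (a1 ⟨a2.conj_mem_U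
    (fun r hr => by simpa using pos_ng_iff.mpr (not_pos_w0 (J := Set.univ) (pos_ng_iff.mpr hr) (by simp [InJ]))) hv.1,
    Γ.mul_mem (Γ.mul_mem a3.1 hv.2) (Γ.inv_mem a3.1)⟩))

end Tw

end Cfsg.Agent.SubF
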