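import Cfsg.Agent.SubF.Co
import Cfsg.Agent.SubF.Fin
import Cfsg.Agent.ChAut.Unt

/-! Finite subgroups of Chevalley groups containing all `x_r(1)`: the field of definition. -/

set_option autoImplicit false

namespace Cfsg.Agent.SubF

open Cfsg.Lie Cfsg.Agent.Chev Cfsg.Agent.Chev.Sys Polynomial

attribute [-simp] zsmul_eq_mul

section Field

variable {F : Type*} [Field F]

theorem exists_subfield (A : AddSubgroup F) [Finite A] (h1 : 1 ∈ A) (h : ∀ a ∈ A, ∀ b ∈ A, a * b ∈ A) :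
    ∃ K : Subfield F, ∀ t, t ∈ K ↔ t ∈ A := by
  let R : Subring F := { A with one_mem' := h1, mul_mem' := fun ha hb => h _ ha _ hb }
  have : Finite R := ‹_›
  refine ⟨{ R with inv_mem' := fun a ha => ?_ }, fun _ => Iff.rfl⟩
  by_cases e : a = 0
  · rwa [e, inv_zero, ← e]
  obtain ⟨b, hb⟩ := (Finite.isField_of_domain R).mul_inv_cancel (a := ⟨a, ha⟩) (by simpa [Subtype.ext_iff])
  exact eq_inv_of_mul_eq_one_right (congrArg Subtype.val hb) ▸ b.2

theorem mem_of_pow (p : ℕ) [Fact p.Prime] [CharP F p] {A : Subfield F} [Finite A] {t : F} (h : t ^ p ∈ A) : t ∈ A := by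
  obtain ⟨s, hs⟩ := (Finite.injective_iff_surjective.1 (frobenius A p).injective) ⟨_, h⟩
  exact (frobenius F p).injective (congrArg Subtype.val hs) ▸ s.2

theorem pow_card_iff (A : Subfield F) [Finite A] {t : F} : t ^ Nat.card A = t ↔ t ∈ A := by
  classical
  have := Fintype.ofFinite A
  have h0 : ∀ t ∈ A, t ^ Nat.card A = t := fun t ht => by
    simpa using congrArg Subtype.val (FiniteField.pow_card (⟨t, ht⟩ : A))
  refine ⟨fun h => by_contra fun e => ?_, h0 t⟩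
  have h1 : 1 < Nat.card A := Finite.one_lt_card
  have := card_le_degree_of_subset_roots (p := (X ^ Nat.card A - X : F[X]))
    (Z := insert t (Finset.univ.image A.subtype)) fun s hs => by
      rw [mem_roots (FiniteField.X_pow_card_sub_X_ne_zero F h1)]
      simp only [Finset.mem_val, Finset.mem_insert, Finset.mem_image] at hs
      rcases hs with rfl | ⟨s, -, rfl⟩
      · simpa [sub_eq_zero] using h
      · simpa [sub_eq_zero] using h0 _ s.2
  rw [FiniteField.X_pow_card_sub_X_natDegree_eq F h1, Finset.card_insert_of_notMem (by simpa using e),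
    Finset.card_image_of_injective _ A.subtype.injective, Finset.card_univ, Nat.card_eq_fintype_card] at this
  omega

end Field

variable {D : ChevalleyDatum} [Good D] {F : Type*} [Field F] {G : Type*} [Group G] {X : Sys D F G} {M : Subgroup G}

/-- `k` is the reflection of `s` in `r`. -/
def IsR (r s k : Rt D) : Prop := ∀ i, rtv k i = rtv s i - A r s * rtv r i

instance instDecidableIsR (r s k : Rt D) : Decidable (IsR r s k) := by unfold IsR; infer_instance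

theorem IsR.eq {r s k : Rt D} (h : IsR r s k) : refl r s = k := rtv_injective (funext fun i => by simp [rtv_refl, h i])

variable (X M) in
/-- The parameters of the root elements in `M`. -/
def AR (r : Rt D) : AddSubgroup F where
  carrier := {t | X.x r t ∈ M}
  zero_mem' := by simp
  add_mem' h h' := by simpa [X.add] using mul_mem h h'
  neg_mem' h := by simpa [x_neg] using h

theorem finite_AR (c : X.Cover) [Finite M] (r : Rt D) : Finite (AR X M r) :=
  Finite.of_injective (fun t => (⟨_, t.2⟩ : M)) fun t u h => Subtype.ext (sub_eq_zero.1 (c.x_eq_one (r := r) (by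
    rw [sub_eq_add_neg, X.add, x_neg, Subtype.mk.inj h, mul_inv_cancel])))

theorem sgn_mem {r : Rt D} {ε : ℤ} (h : ε = 1 ∨ ε = -1) {t : F} : X.x r (ε * t) ∈ M ↔ X.x r t ∈ M := by
  rcases h with rfl | rfl <;> simp [x_neg]

theorem comm_M {p : ℕ} (hp : (p : F) = 0) {a b : Rt D} {L : List Tm} (h : CommIs D p a b L) {t u : F}
    (ha : X.x a t ∈ M) (hb : X.x b u ∈ M) : gword X.x (evT (-t) u L) ∈ M := by
  have := X.xN_comm hp h t u
  rw [xN_val, xN_val] at this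
  exact (M.mul_mem_cancel_left (mul_mem ha hb)).1 (this ▸ mul_mem hb ha)

theorem Th.rat {θ : Rt D} (h : Th θ) {A : Subfield F} (hA : ∀ t, X.x θ t ∈ M → t ∈ A) : Rat X M A θ := fun u hu t ht => by
  have := X.U_mono (T := ∅) (fun k hk => hk.2 (eq_of_le_of_ht (h.2 k hk.1.1).1 hk.1.2)) ht
  rw [U_empty, Subgroup.mem_bot, inv_mul_eq_one] at this
  exact hA t (this ▸ hu)

variable [Conn D] (h1 : ∀ r, X.x r 1 ∈ M)
include h1

omit [Conn D] in
theorem n_mem (r : Rt D) : X.n r 1 ∈ M := mul_mem (mul_mem (h1 _) (by simpa [x_neg] using h1 _)) (h1 _)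

theorem x_ln (hD : DomU D) {r s : Rt D} (e : ln r = ln s) {t : F} (h : X.x r t ∈ M) : X.x s t ∈ M := by
  obtain ⟨w, rfl⟩ := hD.exists_smul e
  refine W_induction (P := fun w => X.x (w • r) t ∈ M) (by simpa) (fun i w ih => ?_) w
  have := mul_mem (mul_mem (n_mem h1 (sm i)) ih) (inv_mem (n_mem h1 (sm i)))
  rwa [X.n_conj _ _ one_ne_zero, one_zpow, mul_one, sgn_mem (eta_eq _ _), ← sr_smul, ← mul_smul] at this

theorem x_all (hD : DomU D) {θ : Rt D} (h : ∀ r : Rt D, ln r = ln θ ∨ ∃ b, ln b = ln θ ∧ A b r = 1) {A : Subfield F}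
    (hA : ∀ t ∈ A, X.x θ t ∈ M) (r : Rt D) {t : F} (ht : t ∈ A) : X.x r t ∈ M := by
  rcases h r with h | ⟨b, h, h'⟩
  · exact x_ln h1 hD h.symm (hA t ht)
  by_cases e : t = 0
  · simp [e]
  have a : ∀ s ∈ A, X.n b s ∈ M := fun s hs => mul_mem (mul_mem (x_ln h1 hD h.symm (hA s hs))
    (x_ln h1 hD (by simp [h]) (hA _ (neg_mem (inv_mem hs))))) (x_ln h1 hD h.symm (hA s hs))
  have b : X.h b t ∈ M := mul_mem (a t ht) (a _ (neg_mem (one_mem A)))
  simpa [X.h_conj _ _ e, h'] using mul_mem (mul_mem b (h1 r)) (inv_mem b)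

theorem mul_long (hD : DomU D) {θ a b k : Rt D} {ε : ℤ} (h : ln θ = ln a ∧ ln θ = ln b ∧ ln k = ln θ ∧
    (ε = 1 ∨ ε = -1) ∧ CommIs D 0 a b [(k, ε, 1, 1)]) : ∀ s ∈ AR X M θ, ∀ t ∈ AR X M θ, s * t ∈ AR X M θ :=
  fun s hs t ht => by
  have := comm_M Nat.cast_zero h.2.2.2.2 (x_ln h1 hD h.1 (neg_mem hs)) (x_ln h1 hD h.2.1 ht)
  simp only [evT, List.map, gword_cons, gword_nil, mul_one, neg_neg, pow_one, mul_assoc, sgn_mem h.2.2.2.1] at this
  exact x_ln h1 hD h.2.2.1 this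

theorem mul_B2 (hD : DomU D) {p : ℕ} [Fact p.Prime] [CharP F p] (h2 : p ≠ 2) {a b c d : Rt D}
    (h : ln d = ln b ∧ ln c = ln a ∧ CommIs D 0 a b [(c, -1, 1, 1), (d, -1, 2, 1)] ∧ CommIs D 0 a c [(d, 2, 1, 1)]) :
    ∀ s ∈ AR X M d, ∀ t ∈ AR X M d, s * t ∈ AR X M d := fun s hs t ht => by
  have k : ∀ s ∈ AR X M d, X.x c s ∈ M := fun s hs => by
    have := comm_M Nat.cast_zero h.2.2.1 (h1 a) (x_ln h1 hD h.1 hs)
    simp only [evT, List.map, gword_cons, gword_nil, mul_one] at this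
    simpa using (M.mul_mem_cancel_right (by simpa [x_neg] using show X.x d s ∈ M from hs)).1 this
  have := comm_M Nat.cast_zero h.2.2.2 (x_ln h1 hD h.2.1 (neg_mem (show s ∈ AR X M c from k s hs))) (k t ht)
  simp only [evT, List.map, gword_cons, gword_nil, mul_one, neg_neg, pow_one] at this
  obtain ⟨n, hn⟩ := (Fact.out : p.Prime).odd_of_ne_two h2
  have e := CharP.cast_eq_zero F p
  convert nsmul_mem (show _ ∈ AR X M d from this) (n + 1) using 1
  rw [nsmul_eq_mul]; rw [hn] at e; push_cast at e ⊢; linear_combination (-s * t) * e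

/-- The configuration of type `B₂` in characteristic two. -/
theorem pair_two (c₀ : X.Cover) [Finite M] [CharP F 2] {a b c d : Rt D} (h : (IsR b c a ∧ IsR b d d ∧ IsR a c c ∧ IsR a d b) ∧
    (Pos c ∧ Pos d ∧ c ≠ d) ∧ CommIs D 2 a b [(c, 1, 1, 1), (d, 1, 2, 1)] ∧ CommIs D 2 c d [] ∧ CommIs D 2 a c [] ∧
    CommIs D 2 d b []) :
    ∃ A : Subfield F, (∀ t, t ∈ A ↔ X.x d t ∈ M) ∧ ∀ s t, X.x c s * X.x d t ∈ M → s ∈ A := by
  obtain ⟨⟨r1, r2, r3, r4⟩, ⟨q1, q2, q3⟩, k1, k2, k3, k5⟩ := h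
  have hp : ((2 : ℕ) : F) = 0 := CharP.cast_eq_zero F 2
  have cm : ∀ {r s : Rt D}, CommIs D 2 r s [] → ∀ t u, Commute (X.x s u) (X.x r t) := fun h t u => by
    simpa [xN_val] using X.xN_commute hp h t u
  let S0 : AddSubgroup (F × F) :=
    { carrier := {z | X.x c z.1 * X.x d z.2 ∈ M}
      zero_mem' := by simp
      add_mem' := fun {y z} h h' => by
        simpa [X.add, (cm k2 _ _).symm.mul_mul_mul_comm] using mul_mem h h'
      neg_mem' := fun {y} h => by simpa [x_neg, (cm k2 _ _).inv_inv.eq] using M.inv_mem h }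
  have cj : ∀ r, ∀ z ∈ S0, X.x (refl r c) z.1 * X.x (refl r d) z.2 ∈ M := fun r z hz => by
    have e : ∀ s t, X.n r 1 * X.x s t * (X.n r 1)⁻¹ = X.x (refl r s) t := fun s t => by
      rw [X.n_conj _ _ one_ne_zero]; rcases eta_eq r s with h | h <;> simp [h, CharTwo.neg_eq]
    rw [← e, ← e]
    simpa [mul_assoc] using mul_mem (mul_mem (n_mem h1 r) hz) (inv_mem (n_mem h1 r))
  have rule : ∀ y ∈ S0, ∀ z ∈ S0, (y.1 * z.2, y.1 ^ 2 * z.2) ∈ S0 := fun y hy z hz => by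
    have a1 := cj b y hy
    have a2 := cj a z hz
    rw [r1.eq, r2.eq] at a1
    rw [r3.eq, r4.eq] at a2
    have a3 := X.xN_comm hp k1 y.1 z.2
    simp only [xN_val, evT, List.map, gword_cons, gword_nil, mul_one, CharTwo.neg_eq, pow_one, Int.cast_one,
      one_mul] at a3
    refine (M.mul_mem_cancel_left (mul_mem a1 a2)).1 ?_
    convert mul_mem a2 a1 using 1
    have a4 : Commute (X.x d y.2) (X.x c z.1 * X.x b z.2 * (X.x c (y.1 * z.2) * X.x d (y.1 ^ 2 * z.2))) :=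
      ((cm k2 _ _).mul_right (cm k5 _ _).symm).mul_right ((cm k2 _ _).mul_right
        ((X.add ..).symm.trans (add_comm y.2 _ ▸ X.add ..)))
    rw [mul_assoc, mul_assoc, a4.eq, mul_assoc (X.x c z.1) _ (X.x a _ * _), ← mul_assoc (X.x b _) (X.x a _), a3]
    simp only [← mul_assoc, (cm k3 _ _).eq]
  have : Finite S0 := Finite.of_injective (fun z => (⟨_, z.2⟩ : M)) fun y z h => by
    have := c₀.prod_inj nilp_Pos (L := [c, d]) (by simp [*]) (by simpa) (t := fun k => if k = c then y.1.1 else y.1.2)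
      (t' := fun k => if k = c then z.1.1 else z.1.2) (by simpa [prod_cons, q3.symm] using h)
    exact Subtype.ext (Prod.ext (by simpa using this c) (by simpa [q3.symm] using this d))
  have o1 : (1, 0) ∈ S0 := by simpa [S0] using h1 c
  have o2 : (0, 1) ∈ S0 := by simpa [S0] using h1 d
  let P1 := S0.map (AddMonoidHom.fst F F)
  let P2 := S0.map (AddMonoidHom.snd F F)
  have : Finite P1 := Finite.Set.finite_image _ _
  have : Finite P2 := Finite.Set.finite_image _ _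
  have b1 : P2 ≤ P1 := by rintro _ ⟨z, hz, rfl⟩; exact ⟨_, rule _ o1 z hz, by simp⟩
  have b2 : P2 = P1 := AddSubgroup.eq_of_le_of_card_ge b1 (Nat.card_le_card_of_injective
    (fun s => ⟨s.1 ^ 2, s.2.elim fun y hy => ⟨_, rule y hy.1 _ o2, by simp [← hy.2]⟩⟩)
    fun s t h => Subtype.ext ((frobenius F 2).injective (Subtype.mk.inj h)))
  obtain ⟨A, hA⟩ := exists_subfield P1 ⟨_, o1, rfl⟩ (by
    rintro _ ⟨y, hy, rfl⟩ t ht
    obtain ⟨z, hz, rfl⟩ := b2.ge ht
    exact ⟨_, rule y hy z hz, rfl⟩)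
  have b3 : ∀ s ∈ A, s ≠ 0 → ∀ t ∈ A, (t, s * t) ∈ S0 := fun s hs h0 t ht => by
    obtain ⟨y, hy, rfl⟩ := (hA s).1 hs
    obtain ⟨z, hz, e⟩ := b2.ge ((hA _).1 (div_mem ht hs))
    convert rule y hy z hz using 2 <;> simp only [AddMonoidHom.coe_snd, AddMonoidHom.coe_fst] at e h0 ⊢ <;>
      rw [e] <;> field_simp
  refine ⟨A, fun t => ⟨fun ht => ?_, fun ht => (hA t).2 (b1 ⟨(0, t), by simpa [S0], rfl⟩)⟩,
    fun s t h => (hA s).2 ⟨(s, t), h, rfl⟩⟩
  by_cases e : t = 0 ∨ t = 1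
  · rcases e with rfl | rfl
    exacts [by simp, h1 d]
  push Not at e
  have e' := sub_ne_zero.2 e.2
  have b4 := div_mem ht (sub_mem ht (one_mem A))
  have := sub_mem (b3 t ht e.1 _ b4) (b3 1 (one_mem A) one_ne_zero _ b4)
  rw [Prod.mk_sub_mk, sub_self, ← sub_mul, mul_div_cancel₀ _ e'] at this
  simpa [S0] using this

omit [Conn D] in
theorem hZ_one : ∀ r, Pos r → ∃ v ∈ X.U (orbE (Sym.one D) r), X.x r 1 * v ∈ M :=
  fun r _ => ⟨1, one_mem _, by simpa using h1 r⟩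

/-- A root subgroup in the centre of `U` in characteristic `p`. -/
def Cen (p : ℕ) (L : List ℤ) (θ μ : Rt D) : Prop := Pos μ ∧ (∀ r : Rt D, Pos r → r = μ ∨ CommIs D p r μ []) ∧
  ∀ r : Rt D, ht μ ≤ ht r → (r = μ ∨ r = θ ∨ Push (Sym.one D) L r) ∧ ∀ s : Rt D, ht s = ht r → s = r

instance instDecidableCen (p : ℕ) (L : List ℤ) (θ μ : Rt D) : Decidable (Cen p L θ μ) := by unfold Cen; infer_instance

section Cen

variable (c : X.Cover) {p : ℕ} (hp : (p : F) = 0) {L : List ℤ} (hL : ∀ e ∈ L, (e : F) ≠ 0) {θ μ : Rt D} (hθ : Th θ)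
  (h : Cen p L θ μ) {A : Subfield F} (hA : ∀ t, X.x θ t ∈ M → t ∈ A)
include c hp hL hθ h hA

omit [Conn D] in
theorem Cen.push {r : Rt D} (hr : ht μ < ht r) (h0 : r ≠ θ) {s t : F} {u : G} (hu : Co X r u t)
    (hM : X.x μ s * u ∈ M) : t ∈ A := by
  have a1 : ∀ r : Rt D, ht μ < ht r → Pos r := fun r hr => pos_iff_ht.2 (h.1.ht_pos.trans hr)
  have a2 : ∀ r : Rt D, ht μ < ht r → r = θ ∨ Push (Sym.one D) L r := fun r hr =>
    (h.2.2 r hr.le).1.resolve_left (by rintro rfl; omega)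
  refine SubF.push c (fun _ => rfl) (hZ_one h1) hL (a1 r hr) ((a2 r hr).resolve_left h0) (fun k hk =>
    rat_all c (fun _ => rfl) (hZ_one h1) hL (m := ht μ + 1) (fun γ hγ => (a2 γ hγ.2).symm.imp_right
      fun e => e ▸ hθ.rat hA) k ⟨a1 k (hr.trans hk), hr.trans hk⟩) hu fun z hz hz' => ?_
  have a3 : Commute z (X.x μ s) := U_induction (P := fun u => Commute u (X.x μ s)) (.one_left _)
    (fun r hr s _ _ ih => ih.mul_left (by
      rcases h.2.1 r hr with rfl | e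
      · exact (X.add ..).symm.trans (add_comm s _ ▸ X.add ..)
      · simpa [xN_val] using (X.xN_commute hp e s _).symm)) hz
  convert mul_mem (mul_mem (mul_mem (inv_mem hM) (inv_mem hz')) hM) hz' using 1
  rw [mul_inv_rev, mul_assoc u⁻¹ (X.x μ s)⁻¹, ← a3.inv_inv.eq]; group

omit [Conn D] in
theorem Cen.rat (hA' : ∀ r, ∀ t ∈ A, X.x r t ∈ M) (hP : ∀ s t, X.x μ s * X.x θ t ∈ M → s ∈ A) : Rat X M A μ := by
  intro u hu s hs
  have key : ∀ n : ℕ, ∃ v ∈ X.U (Lv (ht μ + 1 + n) ∪ {θ}), X.x μ s * v ∈ M := fun n => by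
    induction n with
    | zero => exact ⟨_, X.U_mono (fun k hk => .inl ⟨hk.1.1, by
        simpa using lt_of_le_of_ne hk.1.2 fun e => hk.2 ((h.2.2 μ le_rfl).2 k e.symm)⟩) hs, by simpa⟩
    | succ n ih =>
      obtain ⟨v, a1, a2⟩ := ih
      by_cases e : ∃ r, r ≠ θ ∧ ht r = ht μ + 1 + n
      · obtain ⟨r, e1, e2⟩ := e
        have a3 : Pos r := pos_iff_ht.2 (by linarith [h.1.ht_pos])
        obtain ⟨t, ht⟩ := exists_co (r := r) (X.U_mono (Set.union_subset (e2 ▸ subset_rfl) (by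
          rintro _ rfl; exact ⟨hθ.1, Finset.sum_le_sum fun i _ => (hθ.2 r a3).1 i⟩)) a1)
        have a4 := hA' r t (h.push h1 c hp hL hθ hA (by omega) e1 ht a2)
        refine ⟨_, X.U_mono (fun k hk => .inl ⟨hk.1.1, by
          have := lt_of_le_of_ne hk.1.2 fun e => hk.2 ((h.2.2 r (by omega)).2 k e.symm)
          push_cast; omega⟩) ht, ?_⟩
        rcases h.2.1 r a3 with rfl | e
        · omega
        · have := X.xN_commute hp e t s
          rw [xN_val, xN_val] at this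
          rw [← mul_assoc, this.inv_right.eq, mul_assoc]
          exact mul_mem (inv_mem a4) a2
      · exact ⟨v, X.U_mono (fun k hk => or_iff_not_imp_right.2 fun e' => ⟨(hk.resolve_right e').1, by
          have := lt_of_le_of_ne (hk.resolve_right e').2 fun e'' => e ⟨k, e', e''.symm⟩
          push_cast; omega⟩) a1, a2⟩
  obtain ⟨v, a1, a2⟩ := key (ht θ).toNat
  obtain ⟨t, rfl⟩ := mem_U_singleton.1 (X.U_mono (Set.union_subset (fun k hk => by
    have := hk.2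
    have := Finset.sum_le_sum fun i (_ : i ∈ Finset.univ) => (hθ.2 k hk.1).1 i
    have := h.1.ht_pos
    simp only [ht] at *; omega) subset_rfl) a1)
  exact hP s t a2

/-- The configuration of type `G₂` in characteristic three. -/
theorem Cen.pair_three (hD : DomU D) [Fact p.Prime] [CharP F p] [Finite A] (h3 : p = 3) {a b d e : Rt D}
    (k : (Chev.A a μ = 1 ∧ Chev.A a θ = 0 ∧ ln μ = ln a ∧ ln μ = ln d ∧ ht μ < ht e ∧ ht e < ht θ) ∧
      CommIs D p a b [(d, -1, 1, 1), (μ, 1, 2, 1), (e, 1, 3, 1), (θ, 1, 3, 2)]) (s t : F)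
    (hM : X.x μ s * X.x θ t ∈ M) : s ∈ A := by
  obtain ⟨⟨k1, k2, k3, k4, k5, k6⟩, k7⟩ := k
  have a1 : X.h a (-1) ∈ M := by
    have : X.n a (-1) ∈ M := by rw [n_neg]; exact inv_mem (n_mem h1 a)
    exact mul_mem this this
  have a2 : X.x μ (-s) * X.x θ t ∈ M := by
    have e1 := X.h_conj a μ (t := -1) (by simp) s
    have e2 := X.h_conj a θ (t := -1) (by simp) t
    rw [k1, zpow_one, neg_one_mul] at e1
    rw [k2, zpow_zero, one_mul] at e2
    rw [← e1, ← e2]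
    simpa [mul_assoc] using mul_mem (mul_mem a1 hM) (inv_mem a1)
  have a3 : X.x μ (s + s) ∈ M := by
    simpa [x_neg, mul_assoc, X.add] using mul_mem hM (inv_mem a2)
  have a4 : X.x μ (-s) ∈ M := by
    subst h3
    convert a3 using 2; linear_combination -s * hp
  have a5 := comm_M hp k7 (x_ln h1 hD k3 a4) (h1 b)
  simp only [evT, List.map, gword_cons, gword_nil, mul_one, neg_neg, Int.cast_one, one_mul, one_pow, Int.cast_neg,
    neg_mul, pow_one] at a5
  refine mem_of_pow p (h3 ▸ h.push h1 c hp hL hθ hA k5 (by rintro rfl; omega) ?_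
    ((M.mul_mem_cancel_left (x_ln h1 hD k4 a4)).1 a5))
  simpa [Co] using X.x_mem_U (show θ ∈ Lv (ht e) \ {e} from ⟨⟨hθ.1, k6.le⟩, by rintro rfl; omega⟩) _

end Cen

/-- The data for the final step. -/
def Fin1 (θ β : Rt D) (i j : Sm D) : Prop := Th θ ∧ (∀ r : Rt D, ln r = ln θ ∨ ∃ b, ln b = ln θ ∧ A b r = 1) ∧
  (Pos β ∧ A θ β = 0 ∧ ∀ r : Rt D, Pos r → A θ r = 0 → r = β ∨ CommIs D 0 r β []) ∧
  (ln (sm i) ≠ ln θ ∨ CommIs D 0 (sm i) (sm j) [])

instance instDecidableFin1 (θ β : Rt D) (i j : Sm D) : Decidable (Fin1 θ β i j) := by unfold Fin1; infer_instance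

theorem unt_fix (c : X.Cover) (m : X.Mult) (hπ : Function.Injective c.π) (p : ℕ) [Fact p.Prime] [CharP F p] [Finite M]
    (hM : M ≤ X.U Set.univ) (hf : X.Fold (Sym.one D) (X.U Set.univ)) {θ β : Rt D} {i j : Sm D} (h : Fin1 θ β i j)
    {A : Subfield F} (hA : ∀ r, ∀ t ∈ A, X.x r t ∈ M) (hR : ∀ r, Pos r → Rat X M A r) {α : X.Aut (Sym.one D)}
    (hα : ∀ r t, α.a r t = t ↔ t ∈ A) : M ≤ α.fix := by
  have a1 : ∀ r, ∀ t ∈ A, X.x r t ∈ α.fix := fun r t ht => (α.σ_x r t).trans (congrArg _ ((hα r t).2 ht))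
  have a2 : ∀ u ∈ X.UP, u ∈ X.U (Lv 0) := fun u hu => X.U_mono (fun k hk => And.intro hk (Pos.ht_pos hk).le) hu
  have L : Loc (Sym.one D) X (X.U Set.univ) M α :=
    { fold := hf
      le := hM
      map := fun y hy => α.σ_mem_U (by simp) hy
      up := fun u hu hu' => strip (S := Sym.one D) (K := α.fix) c (fun _ => rfl) (fun _ => .inl rfl)
        (fun _ _ _ _ h => h) (fun r hr u hu t ht =>
        ⟨_, ⟨hA r t (hR r hr.1 u hu t ht), a1 r t (hR r hr.1 u hu t ht)⟩, X.x_mem_U (.inl rfl) t, co_x r t⟩)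
        u (a2 u hu) hu'
      up' := fun u hu _ hu' => strip (S := Sym.one D) (M := α.fix) c (fun _ => rfl) (fun _ => .inl rfl)
        (fun _ _ _ _ h => h) (fun r hr u hu t ht => by
          have e := ht.σ (fun _ => rfl) α
          rw [Aut.mem_fix.1 hu] at e
          have := (hα r t).1 (Co.unique hr.1 c e ht)
          exact ⟨_, ⟨a1 r t this, hA r t this⟩, X.x_mem_U (.inl rfl) t, co_x r t⟩) u (a2 u hu) hu'
      exN := fun i => ⟨_, X.n_mem_N _ one_ne_zero, ChAut.w1_one i ▸ X.mon_sm i one_ne_zero, n_mem h1 _,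
        n_mem (M := α.fix) (fun r => a1 r 1 (one_mem _)) _⟩
      ht := fun _ => rfl
      orb := fun i => by
        obtain ⟨j, h, -⟩ := exists_nbr i
        exact ⟨j, by simpa [ChAut.orb_one] using h.symm⟩
      top := fun r _ => ⟨1, one_ne_zero, 1, one_mem _, by simpa using h1 r⟩ }
  obtain ⟨b1, -, ⟨b2, b3, b4⟩, b5⟩ := h
  have b6 : ∀ i, ∀ v ∈ X.U {r | Pos r ∧ r ≠ sm i}, X.x (sm i) 1 * v ∉ X.U {r | Pos r ∧ r ≠ sm i} := fun i v hv =>
    c.x_mul_not_mem (stab_sm (X := X) i).nilp subset_rfl (pos_sm i) (by simp) one_ne_zero hv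
  refine L.le_fix c m hπ p b1 (h1 θ) rfl (fun _ => ⟨_, h1 β, fun e => one_ne_zero (c.x_eq_one e),
    X.x_mem_U (And.intro b2 b3) 1, fun u hu => U_induction (P := fun u => Commute u _) (.one_left _)
      (fun r hr s _ _ ih => ih.mul_left ?_) hu⟩) fun hp => ?_
  · rcases b4 r hr.1 hr.2 with rfl | e
    · exact (X.add ..).symm.trans (add_comm s _ ▸ X.add ..)
    · simpa [xN_val] using (X.xN_commute Nat.cast_zero e s _).symm
  subst hp
  have b7 : ∀ r, X.x r 1 * X.x r 1 = 1 := fun r => by simp [← X.add, CharTwo.add_self_eq_zero]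
  rcases b5 with b5 | b5
  · exact ⟨_, X.x_mem_U (pos_sm i) 1, h1 _, b7 _, i, by simpa using b6 i 1 (one_mem _), .inl b5⟩
  have b8 : j ≠ i := fun e => b5.2.2.1 (e ▸ rfl)
  have b9 := X.xN_commute Nat.cast_zero b5 1 1
  rw [xN_val, xN_val] at b9
  exact ⟨_, mul_mem (X.x_mem_U (pos_sm i) 1) (X.x_mem_U (pos_sm j) 1), mul_mem (h1 _) (h1 _),
    by rw [b9.mul_mul_mul_comm, b7, b7, one_mul], i, b6 i _ (X.x_mem_U (And.intro (pos_sm j) (by simpa)) 1),
    .inr (.inr ⟨j, b8, b9.eq ▸ b6 j _ (X.x_mem_U (And.intro (pos_sm i) (by simpa using b8.symm)) 1)⟩)⟩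

variable (X M) in
/-- `A` is the field of definition of `M ∩ U`. -/
def Out (A : Subfield F) : Prop := (∀ r, ∀ t ∈ A, X.x r t ∈ M) ∧ ∀ r, Pos r → Rat X M A r

theorem out_of (c : X.Cover) (hD : DomU D) {θ β : Rt D} {i j : Sm D} (h : Fin1 θ β i j) {A : Subfield F}
    (hA : ∀ t, t ∈ A ↔ X.x θ t ∈ M) {L : List ℤ} (hL : ∀ e ∈ L, (e : F) ≠ 0) {μ : Rt D}
    (hP : ∀ r : Rt D, Pos r → r = θ ∨ r = μ ∨ Push (Sym.one D) L r)
    (hμ : μ = θ ∨ ∃ p : ℕ, (p : F) = 0 ∧ Cen p L θ μ ∧ ∀ s t, X.x μ s * X.x θ t ∈ M → s ∈ A) : Out X M A := by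
  have a1 := x_all h1 hD h.2.1 fun t => (hA t).1
  have a2 := h.1.rat fun t => (hA t).2
  refine ⟨fun r t => a1 r, fun r hr => rat_all c (fun _ => rfl) (hZ_one h1) hL (m := 0) (fun r hr => ?_) r
    ⟨hr, hr.ht_pos.le⟩⟩
  rcases hP r hr.1 with rfl | rfl | e
  · exact .inr a2
  · exact .inr (hμ.elim (· ▸ a2) fun ⟨p, b1, b2, b3⟩ => b2.rat h1 c b1 hL h.1 (fun t => (hA t).2)
      (fun r t => a1 r) b3)
  · exact .inl e

omit h1 [Conn D] [Good D] in
theorem cast_ne (p : ℕ) [Fact p.Prime] [CharP F p] {n : ℕ} (hn : n.Prime) (h : p ≠ n) :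
    ∀ e ∈ [1, -1, (n : ℤ), -n], (e : F) ≠ 0 := by
  have : (n : F) ≠ 0 := fun e => h ((Nat.prime_dvd_prime_iff_eq Fact.out hn).1 ((CharP.cast_eq_zero_iff F p n).1 e))
  simpa

/-- The certificate for the simply laced types. -/
def SLC (θ β : Rt D) (i j : Sm D) (a b k : Rt D) : Prop := Fin1 θ β i j ∧ (ln θ = ln a ∧ ln θ = ln b ∧ ln k = ln θ ∧
    ((-1 : ℤ) = 1 ∨ (-1 : ℤ) = -1) ∧ CommIs D 0 a b [(k, -1, 1, 1)]) ∧
  ∀ r : Rt D, Pos r → r = θ ∨ r = θ ∨ Push (Sym.one D) [1, -1] r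

omit h1 in
theorem out_sl (hU : DomU D) {θ β : Rt D} {i j : Sm D} {a b k : Rt D} (h : SLC θ β i j a b k) :
    ∃ (_ : Good D) (_ : Conn D) (θ β : Rt D) (i j : Sm D), Fin1 θ β i j ∧ ∀ (X : Sys D F G) (_ : X.Cover) (p : ℕ)
      [Fact p.Prime] [CharP F p] (M : Subgroup G) [Finite M], (∀ r, X.x r 1 ∈ M) → ∃ A, Out X M A := by
  refine ⟨_, inferInstance, _, _, _, _, h.1, fun X c p _ _ M _ h1 => ?_⟩
  have := finite_AR (M := M) c
  obtain ⟨A, hA⟩ := exists_subfield _ (h1 _) (mul_long h1 hU h.2.1)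
  exact ⟨A, out_of h1 c hU h.1 hA (by simp) h.2.2 (.inl rfl)⟩

omit h1 [Conn D] [Good D]

theorem certD4 : SLC (D := chevD4) ⟨23, by decide⟩ ⟨12, by decide⟩ ⟨0, by decide⟩ ⟨2, by decide⟩
    ⟨18, by decide⟩ ⟨14, by decide⟩ ⟨19, by decide⟩ := ⟨by decide +kernel, by decide +kernel, by decide +kernel⟩

theorem certE6 : SLC (D := chevE6) ⟨71, by decide⟩ ⟨60, by decide⟩ ⟨0, by decide⟩ ⟨1, by decide⟩
    ⟨56, by decide⟩ ⟨42, by decide⟩ ⟨57, by decide⟩ := ⟨by decide +kernel, by decide +kernel, by decide +kernel⟩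

theorem certE7 : SLC (D := chevE7) ⟨125, by decide⟩ ⟨92, by decide⟩ ⟨0, by decide⟩ ⟨1, by decide⟩
    ⟨93, by decide⟩ ⟨73, by decide⟩ ⟨94, by decide⟩ := ⟨by decide +kernel, by decide +kernel, by decide +kernel⟩

theorem certE8 : SLC (D := chevE8) ⟨239, by decide⟩ ⟨226, by decide⟩ ⟨0, by decide⟩ ⟨1, by decide⟩
    ⟨162, by decide⟩ ⟨135, by decide⟩ ⟨163, by decide⟩ := ⟨by decide +kernel, by decide +kernel, by decide +kernel⟩

theorem exists_out (hD : D ∈ [chevG2, chevB2, chevD4, chevF4, chevE6, chevE7, chevE8]) :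
    ∃ (_ : Good D) (_ : Conn D) (θ β : Rt D) (i j : Sm D), Fin1 θ β i j ∧ ∀ (X : Sys D F G) (_ : X.Cover) (p : ℕ)
      [Fact p.Prime] [CharP F p] (M : Subgroup G) [Finite M], (∀ r, X.x r 1 ∈ M) → ∃ A, Out X M A := by
  have hU := domU_of_mem hD
  have l1 : ∀ e ∈ [1, (-1 : ℤ)], (e : F) ≠ 0 := by simp
  simp only [List.mem_cons, List.not_mem_nil, or_false] at hD
  rcases hD with rfl | rfl | rfl | rfl | rfl | rfl | rfl
  · have h : Fin1 (D := chevG2) ⟨11, by decide⟩ ⟨7, by decide⟩ ⟨0, by decide⟩ ⟨0, by decide⟩ := by decide +kernel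
    refine ⟨_, inferInstance, _, _, _, _, h, fun X c p _ _ M _ h1 => ?_⟩
    have := finite_AR (M := M) c
    obtain ⟨A, hA⟩ := exists_subfield _ (h1 _) (mul_long h1 hU (θ := ⟨11, by decide⟩) (a := ⟨6, by decide⟩)
      (b := ⟨10, by decide⟩) (k := ⟨11, by decide⟩) (ε := 1) (by decide +kernel))
    by_cases hp : p = 3
    swap
    · exact ⟨A, out_of h1 c hU h hA (cast_ne p Nat.prime_three hp) (by decide +kernel) (.inl rfl)⟩
    have : Finite A := Finite.of_injective (fun t => (⟨t.1, (hA _).1 t.2⟩ : AR X M _)) fun _ _ h =>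
      Subtype.ext (congrArg Subtype.val h :)
    have l2 := cast_ne (F := F) p Nat.prime_two (by omega)
    have k : Cen p [1, -1, (2 : ℕ), -(2 : ℕ)] (D := chevG2) ⟨11, by decide⟩ ⟨9, by decide⟩ := by
      subst hp; decide +kernel
    exact ⟨A, out_of h1 c hU h hA l2 (by decide +kernel) (.inr ⟨p, CharP.cast_eq_zero F p, k,
      k.pair_three h1 c (CharP.cast_eq_zero F p) l2 h.1 (fun t => (hA t).2) hU hp (a := ⟨7, by decide⟩)
        (b := ⟨6, by decide⟩) (d := ⟨8, by decide⟩) (e := ⟨10, by decide⟩) (by subst hp; decide +kernel)⟩)⟩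
  · have h : Fin1 (D := chevB2) ⟨7, by decide⟩ ⟨4, by decide⟩ ⟨0, by decide⟩ ⟨0, by decide⟩ := by decide +kernel
    refine ⟨_, inferInstance, _, _, _, _, h, fun X c p _ _ M _ h1 => ?_⟩
    have := finite_AR (M := M) c
    by_cases hp : p = 2
    · subst hp
      obtain ⟨A, hA, hP⟩ := pair_two h1 c (a := ⟨5, by decide⟩) (b := ⟨4, by decide⟩) (c := ⟨6, by decide⟩)
        (d := ⟨7, by decide⟩) (by decide +kernel)
      exact ⟨A, out_of h1 c hU h hA l1 (by decide +kernel) (.inr ⟨2, CharP.cast_eq_zero F 2, by decide +kernel, hP⟩)⟩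
    obtain ⟨A, hA⟩ := exists_subfield _ (h1 _) (mul_B2 h1 hU hp (a := ⟨5, by decide⟩) (b := ⟨4, by decide⟩)
      (c := ⟨6, by decide⟩) (d := ⟨7, by decide⟩) (by decide +kernel))
    exact ⟨A, out_of h1 c hU h hA (cast_ne p Nat.prime_two hp) (by decide +kernel) (.inl rfl)⟩
  · exact out_sl hU certD4
  · have h : Fin1 (D := chevF4) ⟨47, by decide⟩ ⟨41, by decide⟩ ⟨0, by decide⟩ ⟨0, by decide⟩ := by decide +kernel
    refine ⟨_, inferInstance, _, _, _, _, h, fun X c p _ _ M _ h1 => ?_⟩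
    have := finite_AR (M := M) c
    by_cases hp : p = 2
    · subst hp
      obtain ⟨A, hA, hP⟩ := pair_two h1 c (a := ⟨29, by decide⟩) (b := ⟨41, by decide⟩) (c := ⟨44, by decide⟩)
        (d := ⟨47, by decide⟩) (by decide +kernel)
      exact ⟨A, out_of h1 c hU h hA l1 (by decide +kernel) (.inr ⟨2, CharP.cast_eq_zero F 2, by decide +kernel, hP⟩)⟩
    obtain ⟨A, hA⟩ := exists_subfield _ (h1 _) (mul_long h1 hU (θ := ⟨47, by decide⟩) (a := ⟨25, by decide⟩)
      (b := ⟨24, by decide⟩) (k := ⟨26, by decide⟩) (ε := -1) (by decide +kernel))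
    exact ⟨A, out_of h1 c hU h hA (cast_ne p Nat.prime_two hp) (by decide +kernel) (.inl rfl)⟩
  · exact out_sl hU certE6
  · exact out_sl hU certE7
  · exact out_sl hU certE8

/-- The entrywise field automorphism. -/
def frob (D : ChevalleyDatum) [Good D] (φ : F →+* F) : (adS D F).Aut (Sym.one D) :=
  ⟨Matrix.GeneralLinearGroup.map φ, fun _ => φ, fun r t => Units.ext ((adj D).map_y φ r t), fun _ _ h => by simpa,
    fun _ _ => by simp⟩

theorem mem_frob [Good D] {φ : F →+* F} {g : GL D.Idx F} :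
    g ∈ (frob D φ).fix ↔ ∀ i j, φ ((g : Matrix D.Idx D.Idx F) i j) = (g : Matrix D.Idx D.Idx F) i j :=
  ⟨fun h i j => congrArg (fun M : GL D.Idx F => M i j) h, fun h => Units.ext (Matrix.ext h)⟩

/-- Finite subgroups containing the group over the prime field. -/
theorem main (hD : D ∈ [chevG2, chevB2, chevD4, chevF4, chevE6, chevE7, chevE8]) (p : ℕ) [Fact p.Prime] [CharP F p]
    {M : Subgroup (GL D.Idx F)} [Finite M] (hM : M ≤ D.group F)
    (h1 : ∀ (g : GL D.Idx F) (s : ℕ), (g : Matrix D.Idx D.Idx F) = D.x F s 1 → g ∈ M) :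
    ∃ n : ℕ, 0 < n ∧ Nat.card {t : F // t ^ p ^ n = t} = p ^ n ∧
      (∀ t, (∀ (g : GL D.Idx F) (s : ℕ), (g : Matrix D.Idx D.Idx F) = D.x F s t → g ∈ M) ↔ t ^ p ^ n = t) ∧
      ∀ g ∈ M, ∀ i j, (g : Matrix D.Idx D.Idx F) i j ^ p ^ n = (g : Matrix D.Idx D.Idx F) i j := by
  obtain ⟨_, _, θ, β, i, j, a1, a2⟩ := exists_out (F := F) (G := GL D.Idx F) hD
  have a3 : ∀ r, (adS D F).x r 1 ∈ M := fun r => h1 _ r (coe_eq_xN.2 (xN_val ..).symm)
  obtain ⟨A, a4, a5⟩ := a2 _ (adCover D F) p M a3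
  have := finite_AR (M := M) (adCover D F) θ
  have : Finite A := Finite.of_injective (fun t => (⟨t.1, a4 _ _ t.2⟩ : AR _ M θ)) fun _ _ h =>
    Subtype.ext (congrArg Subtype.val h :)
  have := Fintype.ofFinite A
  obtain ⟨n, -, hn⟩ := FiniteField.card A p
  rw [← Nat.card_eq_fintype_card] at hn
  have a6 : ∀ t, t ^ p ^ (n : ℕ) = t ↔ t ∈ A := fun t => hn ▸ pow_card_iff A
  rw [group_eq] at hM
  refine ⟨n, n.pos, by simpa [a6] using hn, fun t => .trans ⟨fun h => a5 θ a1.1.1 _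
    (h _ θ (coe_eq_xN.2 (xN_val ..).symm)) t (co_x θ t), fun h g s e => ?_⟩ (a6 t).symm, fun g hg => mem_frob.1
    (unt_fix a3 (adCover D F) (adS_mult D F) (fun _ _ h => h) p hM (group_eq D F ▸ ChAut.foldOne D F) a1 a4 a5
      (α := frob D (iterateFrobenius F p n)) (fun _ t => a6 t) hg)⟩
  rw [coe_eq_xN.1 e, xN]
  split_ifs
  exacts [a4 _ _ h, one_mem _]

end Cfsg.Agent.SubF
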